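import Cfsg.Agent.H170.Fl.Blocks
import Cfsg.Agent.H574.Deg4.Comm
import Cfsg.Agent.H189.FTRep

/-!
# Systems of blocks and elements of order four without eigenvalue `-1` (helper558)

`no_blk` : a group of order prime to three generated by elements `s` of order four without eigenvalue `-1`, `s ^ 2` moving
at most two dimensions, irreducible of dimension at least three, has no nontrivial system of blocks.
-/

set_option autoImplicit false

namespace Cfsg.Agent.H558.RV

open Module Cfsg.Agent.H167.OP Cfsg.Agent.H170.HL Cfsg.Agent.H170.Fl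

variable {F : Type*} [Field F] {V : Type*} [AddCommGroup V] [Module F V] {G : Type*} [Group G]

/-- an element of order four without eigenvalue `-1`, its square moves at most two dimensions -/
structure Q4 (ρ : Representation F G V) (s : G) : Prop where
  four : s ^ 4 = 1
  neg : ∀ v, ρ s v = -v → v = 0
  rk : rk ρ (s * s) ≤ 2

variable {ρ : Representation F G V} {ι : Type*} [MulAction G ι] {B : ι → Submodule F V}

theorem Q4.alt {s : G} (h : Q4 ρ s) (v : V) : v - ρ s v + ρ (s * s) v - ρ (s * (s * s)) v = 0 := by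
  have h1 := Cfsg.Agent.H574.Deg4.alt_sum_eq_zero ρ h.four h.neg v
  rwa [show s ^ 2 = s * s from pow_two s, show s ^ 3 = s * (s * s) by rw [pow_succ', pow_two]] at h1

/-- a moved block -/
theorem Q4.moved {s : G} (h : Q4 ρ s) (hB : Blk ρ B) {i : ι} (hi : s • i ≠ i) :
    (s * s) • i = i ∧ ∀ v ∈ B i, ρ (s * s) v = -v := by
  have h4 : (s * (s * (s * s))) • i = i := by
    have : s * (s * (s * s)) = s ^ 4 := by simp only [pow_succ, pow_zero, one_mul, mul_assoc]
    rw [this, h.four, one_smul]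
  have h3 : (s * (s * s)) • i ≠ i := by
    intro h3
    rw [mul_smul, h3] at h4
    exact hi h4
  have h2 : (s * s) • i = i := by
    by_contra h2
    obtain ⟨v, hv, hv0⟩ := hB.exists_ne i
    have hd : Disjoint (B i) (⨆ k ∈ ({s • i, (s * s) • i, (s * (s * s)) • i} : Set ι), B k) :=
      hB.ind.disjoint_biSup (by
        rintro (h | h | h)
        · exact hi h.symm
        · exact h2 h.symm
        · exact h3 h.symm)
    have hm : ∀ k ∈ ({s • i, (s * s) • i, (s * (s * s)) • i} : Set ι),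
        B k ≤ ⨆ k ∈ ({s • i, (s * s) • i, (s * (s * s)) • i} : Set ι), B k := fun k hk => le_biSup B hk
    refine hv0 (Submodule.disjoint_def.mp hd v hv ?_)
    have h5 := h.alt v
    have h6 : v = ρ s v - ρ (s * s) v + ρ (s * (s * s)) v := by
      rw [← sub_eq_zero, ← h5]; abel
    rw [h6]
    refine Submodule.add_mem _ (Submodule.sub_mem _ ?_ ?_) ?_
    · exact hm _ (by simp) (hB.map _ i v hv)
    · exact hm _ (by simp) (hB.map _ i v hv)
    · exact hm _ (by simp) (hB.map _ i v hv)
  refine ⟨h2, fun v hv => ?_⟩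
  have h5 := h.alt v
  have hd : Disjoint (B i) (B (s • i)) := hB.ind.pairwiseDisjoint (fun h => hi h.symm)
  have h6 : v + ρ (s * s) v = ρ s v + ρ (s * (s * s)) v := by
    rw [← sub_eq_zero, ← h5]; abel
  have h7 : ρ (s * s) v ∈ B i := by
    have := hB.map (s * s) i v hv
    rwa [h2] at this
  have h8 : ρ (s * (s * s)) v ∈ B (s • i) := by
    have := hB.map (s * (s * s)) i v hv
    rwa [mul_smul, h2] at this
  have h9 : v + ρ (s * s) v = 0 := by
    refine Submodule.disjoint_def.mp hd _ (Submodule.add_mem _ hv h7) ?_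
    rw [h6]
    exact Submodule.add_mem _ (hB.map s i v hv) h8
  rw [add_comm] at h9
  exact eq_neg_of_add_eq_zero_left h9

theorem moved_smul {s : G} {i : ι} (hi : s • i ≠ i) : s • (s • i) ≠ s • i := fun h => hi (MulAction.injective s h)

/-- the moved blocks lie in `[V, s ^ 2]` -/
theorem Q4.le_range {s : G} (h : Q4 ρ s) (h2 : (2 : F) ≠ 0) (hB : Blk ρ B) {i : ι} (hi : s • i ≠ i) :
    B i ≤ LinearMap.range (ρ (s * s) - 1) := by
  intro v hv
  have h1 := (h.moved hB hi).2 v hv
  refine ⟨-((2 : F)⁻¹ • v), ?_⟩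
  rw [LinearMap.sub_apply, End.one_apply, map_neg, map_smul, h1, smul_neg, neg_neg, sub_neg_eq_add, ← add_smul, ← two_mul,
    mul_inv_cancel₀ h2, one_smul]

/-- one moved pair -/
theorem Q4.finrank_pair [FiniteDimensional F V] {s : G} (h : Q4 ρ s) (h2 : (2 : F) ≠ 0) (hB : Blk ρ B) {i : ι}
    (hi : s • i ≠ i) : finrank F (B i) + finrank F (B (s • i)) ≤ 2 := by
  have h1 : B i ⊔ B (s • i) ≤ LinearMap.range (ρ (s * s) - 1) :=
    sup_le (h.le_range h2 hB hi) (h.le_range h2 hB (moved_smul hi))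
  have h3 := Submodule.finrank_mono h1
  have h4 := Submodule.finrank_sup_add_finrank_inf_eq (B i) (B (s • i))
  have h5 : B i ⊓ B (s • i) = ⊥ := (hB.ind.pairwiseDisjoint (fun h => hi h.symm)).eq_bot
  rw [h5, finrank_bot] at h4
  have h6 := h.rk
  unfold Cfsg.Agent.H167.OP.rk at h6
  omega

theorem one_le_finrank [FiniteDimensional F V] (hB : Blk ρ B) (i : ι) : 1 ≤ finrank F (B i) :=
  Submodule.one_le_finrank_iff.mpr (hB.ne i)

/-- the moved blocks form one pair -/
theorem Q4.pair [FiniteDimensional F V] {s : G} (h : Q4 ρ s) (h2 : (2 : F) ≠ 0) (hB : Blk ρ B) {i j : ι}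
    (hi : s • i ≠ i) (hj : s • j ≠ j) (hij : i ≠ j) : s • i = j := by
  by_contra hc
  have h1 : (B i ⊔ B (s • i)) ⊔ B j ≤ LinearMap.range (ρ (s * s) - 1) :=
    sup_le (sup_le (h.le_range h2 hB hi) (h.le_range h2 hB (moved_smul hi))) (h.le_range h2 hB hj)
  have h3 := Submodule.finrank_mono h1
  have h4 := Submodule.finrank_sup_add_finrank_inf_eq (B i) (B (s • i))
  have h5 : B i ⊓ B (s • i) = ⊥ := (hB.ind.pairwiseDisjoint (fun h => hi h.symm)).eq_bot
  rw [h5, finrank_bot] at h4
  have h7 := Submodule.finrank_sup_add_finrank_inf_eq (B i ⊔ B (s • i)) (B j)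
  have h8 : (B i ⊔ B (s • i)) ⊓ B j = ⊥ := by
    have hd : Disjoint (B j) (⨆ k ∈ ({i, s • i} : Set ι), B k) :=
      hB.ind.disjoint_biSup (by
        rintro (h | h)
        · exact hij h.symm
        · exact hc h.symm)
    rw [inf_comm]
    refine (hd.mono_right ?_).eq_bot
    exact sup_le (le_biSup B (by simp)) (le_biSup B (by simp))
  rw [h8, finrank_bot] at h7
  have h6 := h.rk
  unfold Cfsg.Agent.H167.OP.rk at h6
  have h9 := one_le_finrank hB i
  have h10 := one_le_finrank hB (s • i)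
  have h11 := one_le_finrank hB j
  omega

/-- **no blocks** -/
theorem no_blk [Finite G] [FiniteDimensional F V] (h2 : (2 : F) ≠ 0)
    (irr : ∀ M : Submodule F V, (∀ g : G, ∀ m ∈ M, ρ g m ∈ M) → M = ⊥ ∨ M = ⊤) (hd : 3 ≤ finrank F V)
    (h3 : ¬ 3 ∣ Nat.card G) {S : Set G} (hS : ∀ s ∈ S, Q4 ρ s) (hgen : Subgroup.closure S = ⊤)
    (hB : Blk ρ B) [Nontrivial ι] (i : ι) : False := by
  have of_S : ∀ {P : G → Prop}, P 1 → (∀ a b, P a → P b → P (a * b)) → (∀ a, P a → P a⁻¹) → (∀ s ∈ S, P s) → ∀ g, P g := by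
    intro P h1 hm hi hs g
    have hg : g ∈ Subgroup.closure S := by rw [hgen]; exact Subgroup.mem_top g
    induction hg using Subgroup.closure_induction with
    | mem x hx => exact hs x hx
    | one => exact h1
    | mul a b _ _ ha hb => exact hm a b ha hb
    | inv a _ ha => exact hi a ha
  obtain ⟨x, hx, hxi⟩ : ∃ x ∈ S, x • i ≠ i := by
    by_contra hc
    push Not at hc
    have hfix : ∀ g : G, g • i = i := by
      refine of_S (P := fun g => g • i = i) (one_smul G i) ?_ ?_ hc
      · intro a b ha hb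
        rw [mul_smul, hb, ha]
      · intro a ha
        rw [inv_smul_eq_iff, ha]
    obtain ⟨j, hj⟩ := exists_ne i
    obtain ⟨g, hg⟩ := hB.trans irr i j
    rw [hfix g] at hg
    exact hj hg.symm
  have hpair : ∀ y ∈ S, ∀ j k : ι, y • j ≠ j → y • k ≠ k → j ≠ k → y • j = k := fun y hy j k hj hk hjk =>
    (hS y hy).pair h2 hB hj hk hjk
  set j := x • i with hj
  have hxj : x • j = i := by rw [hj, ← mul_smul]; exact ((hS x hx).moved hB hxi).1
  have hij : i ≠ j := fun hc => hxi hc.symm
  -- some generator moves `{i, j}`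
  obtain ⟨y, hy, hyc⟩ : ∃ y ∈ S, (y • i ∉ ({i, j} : Set ι) ∨ y • j ∉ ({i, j} : Set ι)) := by
    by_contra hc
    push Not at hc
    have hinv' : ∀ y : G, (y • i = i ∧ y • j = j) ∨ (y • i = j ∧ y • j = i) := by
      refine of_S (P := fun y => (y • i = i ∧ y • j = j) ∨ (y • i = j ∧ y • j = i))
        (Or.inl ⟨one_smul G i, one_smul G j⟩) ?_ ?_ ?_
      · intro a b ha hb
        rcases ha with ⟨ha1, ha2⟩ | ⟨ha1, ha2⟩ <;> rcases hb with ⟨hb1, hb2⟩ | ⟨hb1, hb2⟩ <;>
          simp only [mul_smul, ha1, ha2, hb1, hb2, and_self, true_or, or_true]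
      · intro a ha
        have h1 : ∀ k l : ι, a • k = l → a⁻¹ • l = k := fun k l hkl => by rw [← hkl, inv_smul_smul]
        rcases ha with ⟨ha1, ha2⟩ | ⟨ha1, ha2⟩
        · exact Or.inl ⟨h1 _ _ ha1, h1 _ _ ha2⟩
        · exact Or.inr ⟨h1 _ _ ha2, h1 _ _ ha1⟩
      · intro y hy
        obtain ⟨h1, h2⟩ := hc y hy
        have h3 : y • i ≠ y • j := fun h => hij (MulAction.injective y h)
        simp only [Set.mem_insert_iff, Set.mem_singleton_iff] at h1 h2
        rcases h1 with h1 | h1 <;> rcases h2 with h2 | h2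
        · exact absurd (h1.trans h2.symm) h3
        · exact Or.inl ⟨h1, h2⟩
        · exact Or.inr ⟨h1, h2⟩
        · exact absurd (h1.trans h2.symm) h3
    have hinv : ∀ y : G, y • i ∈ ({i, j} : Set ι) ∧ y • j ∈ ({i, j} : Set ι) := by
      intro y
      rcases hinv' y with ⟨h1, h2⟩ | ⟨h1, h2⟩ <;> simp [h1, h2]
    have hall : ∀ k, k ∈ ({i, j} : Set ι) := fun k =>
      hB.eq_univ irr (O := {i, j}) (i := i) (by simp) (fun g l hl => by
        rcases hl with rfl | hl
        · exact (hinv g).1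
        · rw [Set.mem_singleton_iff] at hl
          rw [hl]
          exact (hinv g).2) k
    have h1 : (⊤ : Submodule F V) ≤ B i ⊔ B j := by
      rw [← hB.sup]
      refine iSup_le fun k => ?_
      rcases hall k with rfl | hk
      · exact le_sup_left
      · rw [Set.mem_singleton_iff] at hk
        rw [hk]
        exact le_sup_right
    have h4 := Submodule.finrank_mono h1
    rw [finrank_top] at h4
    have h5 := Submodule.finrank_add_le_finrank_add_finrank (B i) (B j)
    have h6 := (hS x hx).finrank_pair h2 hB hxi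
    rw [← hj] at h6
    omega
  have hfix : ∀ {y : G}, y ∈ S → ∀ {i : ι}, y • i ≠ i → ∀ k, k ≠ i → k ≠ y • i → y • k = k := by
    intro y hy i hi k hk hk'
    by_contra hc
    exact hk' (hpair y hy i k hi hc (Ne.symm hk)).symm
  have hyy : ∀ {y : G}, y ∈ S → ∀ {i : ι}, y • i ≠ i → y • y • i = i := fun {y} hy {i} hi => by
    rw [← mul_smul]; exact ((hS y hy).moved hB hi).1
  refine h3 ?_
  rcases hyc with hyc | hyc
  · simp only [Set.mem_insert_iff, Set.mem_singleton_iff, not_or] at hyc
    exact three_dvd (σ := x) (τ := y) (p := i) (a := j) (b := y • i) (Ne.symm hyc.1) rfl hxj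
      (hfix hx hxi _ hyc.1 hyc.2) rfl (hyy hy hyc.1) (hfix hy hyc.1 _ (Ne.symm hij) (Ne.symm hyc.2))
  · simp only [Set.mem_insert_iff, Set.mem_singleton_iff, not_or] at hyc
    exact three_dvd (σ := x) (τ := y) (p := j) (a := i) (b := y • j) (Ne.symm hyc.2) hxj rfl
      (hfix hx hxi _ hyc.1 hyc.2) rfl (hyy hy hyc.2) (hfix hy hyc.2 _ hij (Ne.symm hyc.1))

end Cfsg.Agent.H558.RV
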