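import Cfsg.Agent.H558.RV.Irr34
import Cfsg.Agent.H170.Fl.Claim

/-!
# Two quaternion groups moving two dimensions (helper558)

`c0` : `⟨x, y⟩`, `⟨x', y'⟩` quaternion groups moving two dimensions in a group of order prime to three and to the
characteristic (over an algebraically closed field): `x ^ 2 = x' ^ 2` or the two groups commute.
-/

set_option autoImplicit false

namespace Cfsg.Agent.H558.RV

open Module Cfsg.Agent.H167.OP Cfsg.Agent.H170.HL Cfsg.Agent.H170.Fl Cfsg.Agent.H189.FTRep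

variable {F : Type*} [Field F] {V : Type*} [AddCommGroup V] [Module F V] {G : Type*} [Group G]
  {ρ : Representation F G V}

/-- unipotent elements of order prime to the characteristic -/
theorem unip [Finite G] (hinj : Function.Injective ρ) (hk : (Nat.card G : F) ≠ 0) {t : G} {U : Submodule F V}
    (h1 : ∀ v, ρ t v - v ∈ U) (h2 : ∀ u ∈ U, ρ t u = u) : t = 1 := by
  apply hinj
  ext v
  rw [map_one, End.one_apply]
  have h3 : ∀ n : ℕ, ρ (t ^ n) v = v + (n : F) • (ρ t v - v) := by
    intro n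
    induction n with
    | zero => rw [pow_zero, map_one, End.one_apply, Nat.cast_zero, zero_smul, add_zero]
    | succ n ih =>
      rw [pow_succ', map_mul, End.mul_apply, ih, map_add, map_smul, h2 _ (h1 v), Nat.cast_succ, add_smul, one_smul]
      abel
  have h4 := h3 (Nat.card G)
  rw [pow_card_eq_one', map_one, End.one_apply, left_eq_add] at h4
  rcases smul_eq_zero.1 h4 with h5 | h5
  · exact absurd h5 hk
  · exact sub_eq_zero.1 h5

theorem Q4.sub_mem {x : G} (h : Q4 ρ x) (h2 : (2 : F) ≠ 0) (v : V) : ρ x v - v ∈ E ρ x := by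
  rw [h.mem_E h2]
  have h1 := h.alt v
  have h3 : ρ (x * x) (ρ x v) = ρ (x * (x * x)) v := by
    rw [← End.mul_apply, ← map_mul]; congr 2; simp only [mul_assoc]
  rw [map_sub, h3, ← sub_eq_zero]
  have h4 : ρ (x * (x * x)) v - ρ (x * x) v - -(ρ x v - v) = -(v - ρ x v + ρ (x * x) v - ρ (x * (x * x)) v) := by abel
  rw [h4, h1, neg_zero]

/-- the restriction to `[V, J]` -/
theorem Q4.rW [FiniteDimensional F V] {J : Subgroup G} {x : G} (h : Q4 ρ x) (hx : x ∈ J) :
    Q4 (rW ρ J) ⟨x, hx⟩ where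
  four := Subtype.ext h.four
  neg w hw := Subtype.ext (h.neg w (congrArg Subtype.val hw))
  rk := by
    refine le_trans ?_ h.rk
    unfold Cfsg.Agent.H167.OP.rk
    rw [← Submodule.finrank_map_subtype_eq (CV ρ J) (LinearMap.range (Cfsg.Agent.H170.Fl.rW ρ J (⟨x, hx⟩ * ⟨x, hx⟩) - 1))]
    apply Submodule.finrank_mono
    rintro _ ⟨_, ⟨w, rfl⟩, rfl⟩
    exact ⟨w, rfl⟩

theorem QQ.rW [FiniteDimensional F V] {J : Subgroup G} {x y : G} (h : QQ ρ x y) (hx : x ∈ J) (hy : y ∈ J) :
    QQ (Cfsg.Agent.H170.Fl.rW ρ J) ⟨x, hx⟩ ⟨y, hy⟩ where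
  hx := h.hx.rW hx
  hy := h.hy.rW hy
  sq := Subtype.ext h.sq
  inv := Subtype.ext h.inv
  ne := fun h1 => h.ne (congrArg Subtype.val h1)

/-- the two groups commute -/
theorem comm_of_fix [Finite G] (hinj : Function.Injective ρ) (h2 : (2 : F) ≠ 0) (hk : (Nat.card G : F) ≠ 0)
    {x y a b : G} (h : QQ ρ x y) (ha : a = x ∨ a = y) (hb : ∀ v ∈ E ρ x, ρ b v = v) : a * b = b * a := by
  have haE : ∀ v ∈ E ρ x, ρ a v ∈ E ρ x := by
    rcases ha with rfl | rfl
    · exact (h.inv_E h2).1
    · exact (h.inv_E h2).2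
  have haS : ∀ v, ρ a v - v ∈ E ρ x := by
    intro v
    rcases ha with rfl | rfl
    · exact h.hx.sub_mem h2 v
    · rw [← h.yy]; exact h.hy.sub_mem h2 v
  have ha4 : a ^ 4 = 1 := by
    rcases ha with rfl | rfl
    · exact h.hx.four
    · exact h.hy.four
  have hai : a⁻¹ = a * a * a := by
    rw [inv_eq_iff_mul_eq_one, ← ha4]; simp only [pow_succ, pow_zero, one_mul, mul_assoc]
  have haiE : ∀ v ∈ E ρ x, ρ a⁻¹ v ∈ E ρ x := by
    intro v hv
    rw [hai, map_mul, map_mul, End.mul_apply, End.mul_apply]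
    exact haE _ (haE _ (haE _ hv))
  have haiS : ∀ v, ρ a⁻¹ v - v ∈ E ρ x := by
    intro v
    have h3 := haS (ρ a⁻¹ v)
    rw [ap_inv] at h3
    rw [← neg_sub]
    exact Submodule.neg_mem _ h3
  have hbi : ∀ v ∈ E ρ x, ρ b⁻¹ v = v := by
    intro v hv
    have h3 := inv_ap ρ b v
    rwa [hb v hv] at h3
  have key : a * b * a⁻¹ * b⁻¹ = 1 := by
    refine unip hinj hk (U := E ρ x) ?_ ?_
    · intro v
      rw [map_mul, map_mul, map_mul, End.mul_apply, End.mul_apply, End.mul_apply]
      have h3 := haiS (ρ b⁻¹ v)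
      have h4 : ρ b (ρ a⁻¹ (ρ b⁻¹ v)) - v ∈ E ρ x := by
        have h5 : ρ b (ρ a⁻¹ (ρ b⁻¹ v)) - v = ρ b (ρ a⁻¹ (ρ b⁻¹ v) - ρ b⁻¹ v) := by
          rw [map_sub, ap_inv]
        rw [h5, hb _ h3]
        exact h3
      have h5 := haS (ρ b (ρ a⁻¹ (ρ b⁻¹ v)))
      have h6 := Submodule.add_mem _ h5 h4
      rwa [sub_add_sub_cancel] at h6
    · intro v hv
      rw [map_mul, map_mul, map_mul, End.mul_apply, End.mul_apply, End.mul_apply, hbi v hv, hb _ (haiE v hv), ap_inv]
  calc a * b = (a * b * a⁻¹ * b⁻¹) * (b * a) := by group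
    _ = b * a := by rw [key, one_mul]

/-- **two quaternion groups** -/
theorem c0 [IsAlgClosed F] [FiniteDimensional F V] [Finite G] (hinj : Function.Injective ρ) (h2 : (2 : F) ≠ 0)
    (h3 : ¬ 3 ∣ Nat.card G) (hk : (Nat.card G : F) ≠ 0) {x y x' y' : G} (h : QQ ρ x y) (h' : QQ ρ x' y') :
    x * x = x' * x' ∨ (x * x' = x' * x ∧ x * y' = y' * x ∧ y * x' = x' * y ∧ y * y' = y' * y) := by
  classical
  by_contra hcon
  push Not at hcon
  obtain ⟨hzz, hnc⟩ := hcon
  let S : Set G := {x, y, x', y'}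
  set J : Subgroup G := Subgroup.closure S with hJ
  have hx : x ∈ J := Subgroup.subset_closure (by simp [S])
  have hy : y ∈ J := Subgroup.subset_closure (by simp [S])
  have hx' : x' ∈ J := Subgroup.subset_closure (by simp [S])
  have hy' : y' ∈ J := Subgroup.subset_closure (by simp [S])
  have hJd : Nat.card J ∣ Nat.card G := Subgroup.card_subgroup_dvd_card J
  have hJk : (Nat.card J : F) ≠ 0 := by
    intro h0
    apply hk
    obtain ⟨e, he⟩ := hJd
    rw [he, Nat.cast_mul, h0, zero_mul]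
  have hJ3 : ¬ 3 ∣ Nat.card J := fun hh => h3 (hh.trans hJd)
  have hSQ : ∀ s ∈ S, Q4 ρ s := by
    rintro s (rfl | rfl | rfl | rfl)
    · exact h.hx
    · exact h.hy
    · exact h'.hx
    · exact h'.hy
  -- the support of `J`
  have hW : CV ρ J = E ρ x ⊔ E ρ x' := by
    apply le_antisymm
    · refine CV_closure_le ?_
      rintro s (rfl | rfl | rfl | rfl) _ ⟨v, rfl⟩
      · exact Submodule.mem_sup_left (h.hx.sub_mem h2 v)
      · exact Submodule.mem_sup_left (by rw [← h.yy]; exact h.hy.sub_mem h2 v)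
      · exact Submodule.mem_sup_right (h'.hx.sub_mem h2 v)
      · exact Submodule.mem_sup_right (by rw [← h'.yy]; exact h'.hy.sub_mem h2 v)
    · exact sup_le (range_le_CV ρ (mul_mem hx hx)) (range_le_CV ρ (mul_mem hx' hx'))
  -- trivial action
  have htriv : ∀ {s t : G}, QQ ρ s t → ∀ M : Submodule F V, (∀ g ∈ J, ∀ v ∈ M, ρ g v ∈ M) → s ∈ J → t ∈ J →
      M ⊓ E ρ s = ⊥ → ∀ v ∈ M, ρ s v = v ∧ ρ t v = v := by
    intro s t hst M hM hs ht h0 v hv
    constructor
    · have h5 : ρ s v - v ∈ M ⊓ E ρ s := ⟨Submodule.sub_mem _ (hM s hs v hv) hv, hst.hx.sub_mem h2 v⟩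
      rw [h0, Submodule.mem_bot] at h5
      exact sub_eq_zero.1 h5
    · have h5 : ρ t v - v ∈ M ⊓ E ρ s :=
        ⟨Submodule.sub_mem _ (hM t ht v hv) hv, by rw [← hst.yy]; exact hst.hy.sub_mem h2 v⟩
      rw [h0, Submodule.mem_bot] at h5
      exact sub_eq_zero.1 h5
  -- irreducibility
  have hirr : ∀ M : Submodule F V, M ≤ CV ρ J → (∀ g ∈ J, ∀ m ∈ M, ρ g m ∈ M) → M = ⊥ ∨ M = CV ρ J := by
    intro M hM hinv
    rcases h.irr_E hinj h2 (M := M) (hinv x hx) (hinv y hy) with h4 | h4 <;>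
      rcases h'.irr_E hinj h2 (M := M) (hinv x' hx') (hinv y' hy') with h5 | h5
    · left
      rw [eq_bot_iff]
      intro m hm
      have t1 := htriv h M hinv hx hy h4 m hm
      have t2 := htriv h' M hinv hx' hy' h5 m hm
      have h6 : ∀ g ∈ J, ρ g m = m := by
        intro g hg
        induction hg using Subgroup.closure_induction with
        | mem s hs =>
          rcases hs with rfl | rfl | rfl | rfl
          · exact t1.1
          · exact t1.2
          · exact t2.1
          · exact t2.2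
        | one => exact one_ap ρ m
        | mul a b _ _ iha ihb => rw [mul_ap, ihb, iha]
        | inv a _ iha =>
          have := iha
          conv_lhs => rw [← this, inv_ap]
      have h9 := avg_fixed ρ J hJk h6
      rw [avg_CV ρ J (hM hm)] at h9
      rw [← h9]
      exact Submodule.zero_mem _
    · exfalso
      have t := htriv h M hinv hx hy h4
      have tE : ∀ v ∈ E ρ x', ρ x v = v ∧ ρ y v = v := fun v hv => t v (h5 hv)
      have c1 := comm_of_fix hinj h2 hk h' (Or.inl rfl) (b := x) fun v hv => (tE v hv).1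
      have c2 := comm_of_fix hinj h2 hk h' (Or.inr rfl) (b := x) fun v hv => (tE v hv).1
      have c3 := comm_of_fix hinj h2 hk h' (Or.inl rfl) (b := y) fun v hv => (tE v hv).2
      have c4 := comm_of_fix hinj h2 hk h' (Or.inr rfl) (b := y) fun v hv => (tE v hv).2
      exact hnc c1.symm c2.symm c3.symm c4.symm
    · exfalso
      have t := htriv h' M hinv hx' hy' h5
      have tE : ∀ v ∈ E ρ x, ρ x' v = v ∧ ρ y' v = v := fun v hv => t v (h4 hv)
      have c1 := comm_of_fix hinj h2 hk h (Or.inl rfl) (b := x') fun v hv => (tE v hv).1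
      have c2 := comm_of_fix hinj h2 hk h (Or.inr rfl) (b := x') fun v hv => (tE v hv).1
      have c3 := comm_of_fix hinj h2 hk h (Or.inl rfl) (b := y') fun v hv => (tE v hv).2
      have c4 := comm_of_fix hinj h2 hk h (Or.inr rfl) (b := y') fun v hv => (tE v hv).2
      exact hnc c1 c3 c2 c4
    · right
      apply le_antisymm hM
      rw [hW]
      exact sup_le h4 h5
  -- dimensions
  have hdE := h.finrank_E hinj h2
  have hdE' := h'.finrank_E hinj h2
  have hle : finrank F (CV ρ J) ≤ 4 := by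
    rw [hW]
    have := Submodule.finrank_add_le_finrank_add_finrank (E ρ x) (E ρ x')
    omega
  have hge : 3 ≤ finrank F (CV ρ J) := by
    by_contra hlt
    have e1 : E ρ x = CV ρ J := Submodule.eq_of_le_of_finrank_le (by rw [hW]; exact le_sup_left) (by omega)
    have e2 : E ρ x' = CV ρ J := Submodule.eq_of_le_of_finrank_le (by rw [hW]; exact le_sup_right) (by omega)
    have e3 : E ρ x = E ρ x' := e1.trans e2.symm
    apply hzz
    have i4 : (x' * x') * (x' * x') = 1 := by
      rw [← h'.hx.four]; simp only [pow_succ, pow_zero, one_mul, mul_assoc]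
    have key : (x * x) * (x' * x') = 1 := by
      refine unip hinj hk (U := E ρ x) ?_ ?_
      · intro v
        have m1 : ρ (x' * x') v - v ∈ E ρ x := by rw [e3]; exact ⟨v, rfl⟩
        have m2 : ρ (x * x) (ρ (x' * x') v) - ρ (x' * x') v ∈ E ρ x := ⟨ρ (x' * x') v, rfl⟩
        have m3 := Submodule.add_mem _ m2 m1
        rw [sub_add_sub_cancel] at m3
        rw [map_mul, End.mul_apply]
        exact m3
      · intro u hu
        have m1 := (h.hx.mem_E h2).1 hu
        have m2 := (h'.hx.mem_E h2).1 (by rw [← e3]; exact hu)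
        rw [map_mul, End.mul_apply, m2, map_neg, m1, neg_neg]
    calc x * x = (x * x) * (x' * x') * (x' * x')⁻¹ := by group
      _ = (x' * x')⁻¹ := by rw [key, one_mul]
      _ = x' * x' := inv_eq_of_mul_eq_one_right i4
  -- conclusion
  have hSJ : ∀ s ∈ S, s ∈ J := fun s hs => Subgroup.subset_closure hs
  refine irr_false (Cfsg.Agent.H170.Fl.rW ρ J) (rW_inj ρ J hinj hJk) ⟨?_, ?_⟩ hge hle hJ3 hJk h2
    (S := {s : J | (s : G) ∈ S}) ?_ ?_ (h.rW hx hy)
  · exact Module.nontrivial_of_finrank_pos (R := F) (by omega)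
  · intro M hM
    rcases hirr (M.map (CV ρ J).subtype) (Submodule.map_subtype_le _ _) (by
      rintro g hg _ ⟨m, hm, rfl⟩
      exact ⟨_, hM ⟨g, hg⟩ m hm, rfl⟩) with h4 | h4
    · left
      rw [← Submodule.map_bot (CV ρ J).subtype] at h4
      exact Submodule.map_injective_of_injective (CV ρ J).subtype_injective h4
    · right
      have h5 : M.map (CV ρ J).subtype = (⊤ : Submodule F (CV ρ J)).map (CV ρ J).subtype := by
        rw [h4, Submodule.map_subtype_top]
      exact Submodule.map_injective_of_injective (CV ρ J).subtype_injective h5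
  · rintro ⟨s, hsJ⟩ hs
    exact (hSQ s hs).rW hsJ
  · apply Subgroup.map_injective J.subtype_injective
    rw [MonoidHom.map_closure, ← MonoidHom.range_eq_map, Subgroup.range_subtype]
    have : J.subtype '' {s : J | (s : G) ∈ S} = S := by
      ext s
      constructor
      · rintro ⟨t, ht, rfl⟩; exact ht
      · intro hs; exact ⟨⟨s, hSJ s hs⟩, hs, rfl⟩
    rw [this]

end Cfsg.Agent.H558.RV
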