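import Cfsg.Agent.H558.RV.Sixteen

/-!
# The orbit of length five (helper558)
-/

set_option autoImplicit false

namespace Cfsg.Agent.H558.RV

open MulAction

/-- a permutation of order five of five points is transitive; what commutes with it and has order dividing four is trivial -/
theorem eq_one_of_comm_five {α : Type*} [Finite α] (hα : Nat.card α = 5) {c a : Equiv.Perm α} (hc : orderOf c = 5)
    (hac : a * c = c * a) (ha : a ^ 4 = 1) : a = 1 := by
  classical
  have hne : c ≠ 1 := by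
    rintro rfl
    rw [orderOf_one] at hc
    omega
  obtain ⟨o, ho⟩ : ∃ o, c o ≠ o := by
    by_contra hcon
    push Not at hcon
    exact hne (Equiv.ext hcon)
  have hz : Nat.card (Subgroup.zpowers c) = 5 := by rw [Nat.card_zpowers, hc]
  have hind := MulAction.index_stabilizer (Subgroup.zpowers c) o
  have h1 : (stabilizer (Subgroup.zpowers c) o).index ∣ 5 := by
    rw [← hz]; exact Subgroup.index_dvd_card _
  have h2 : ({o, c o} : Set α) ⊆ orbit (Subgroup.zpowers c) o := by
    rintro b (rfl | hb)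
    · exact mem_orbit_self b
    · rw [Set.mem_singleton_iff] at hb
      rw [hb]
      exact ⟨⟨c, Subgroup.mem_zpowers c⟩, rfl⟩
  have h3 := Set.ncard_le_ncard h2
  rw [Set.ncard_pair (Ne.symm ho)] at h3
  have h5 : (orbit (Subgroup.zpowers c) o).ncard = 5 := by
    rw [hind] at h1
    rcases (Nat.dvd_prime Nat.prime_five).1 h1 with h | h
    · omega
    · exact h
  have huniv : orbit (Subgroup.zpowers c) o = Set.univ := by
    apply Set.eq_of_subset_of_ncard_le (Set.subset_univ _)
    rw [Set.ncard_univ, hα, h5]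
  have hpow : ∀ b : α, ∃ i : ℤ, (c ^ i) o = b := by
    intro b
    have hb : b ∈ orbit (Subgroup.zpowers c) o := by rw [huniv]; trivial
    obtain ⟨⟨_, i, rfl⟩, hi⟩ := hb
    exact ⟨i, hi⟩
  obtain ⟨k, hk⟩ := hpow (a o)
  have hcomm : Commute a c := hac
  have hak : a = c ^ k := by
    ext b
    obtain ⟨i, rfl⟩ := hpow b
    have e1 : a ((c ^ i) o) = (c ^ i) (a o) := by
      have := (hcomm.zpow_right i).eq
      exact congrArg (fun f : Equiv.Perm α => f o) this
    rw [e1, ← hk, ← Equiv.Perm.mul_apply, ← Equiv.Perm.mul_apply, (Commute.zpow_zpow (Commute.refl c) i k).eq]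
  rw [hak, ← zpow_natCast, ← zpow_mul, ← orderOf_dvd_iff_zpow_eq_one, hc] at ha
  have h6 : (5 : ℤ) ∣ k := by
    have h7 : IsCoprime (5 : ℤ) 4 := by norm_num
    have h8 : ((5 : ℕ) : ℤ) ∣ k * ((4 : ℕ) : ℤ) := ha
    exact h7.dvd_of_dvd_mul_right (by exact_mod_cast h8)
  rw [hak, ← orderOf_dvd_iff_zpow_eq_one, hc]
  exact_mod_cast h6

theorem zmod_five (i j : ZMod 5) (hj : j ≠ 0) (h1 : i * i * j = j) (h2 : i * i = j * j) : i = 1 ∨ j = 1 ∨ i * j = 1 := by
  revert i j; decide

/-- a subgroup of order prime to three of the symmetric group of degree five containing an element `c` of order five: it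
normalises the group generated by `c` -/
theorem conj_five {α : Type*} [Finite α] (hα : Nat.card α = 5) {L : Subgroup (Equiv.Perm α)} (h3 : ¬ 3 ∣ Nat.card L)
    {c a : Equiv.Perm α} (hcL : c ∈ L) (haL : a ∈ L) (hc : orderOf c = 5) :
    ∃ i : ℕ, a * c * a⁻¹ = c ^ i := by
  classical
  have h5p : Fact (Nat.Prime 5) := ⟨Nat.prime_five⟩
  have hperm : Nat.card (Equiv.Perm α) = 120 := by
    rw [Nat.card_perm, hα]; rfl
  have hL : Nat.card L ∣ 40 := by
    have h1 : Nat.card L ∣ 3 * 40 := by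
      have := Subgroup.card_subgroup_dvd_card L
      rwa [hperm] at this
    exact ((Nat.Prime.coprime_iff_not_dvd Nat.prime_three).2 h3).symm.dvd_of_dvd_mul_left h1
  let c' : L := ⟨c, hcL⟩
  have hc' : orderOf c' = 5 := by rw [← Subgroup.orderOf_coe]; exact hc
  have hcard : Nat.card (Subgroup.zpowers c') = 5 := by rw [Nat.card_zpowers, hc']
  have h25 : ¬ 5 ^ 2 ∣ Nat.card L := fun h => absurd (h.trans hL) (by norm_num)
  have hidx : (Subgroup.zpowers c').index ∣ 8 := by
    have h1 := Subgroup.card_mul_index (Subgroup.zpowers c')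
    rw [hcard] at h1
    have h2 : 5 * (Subgroup.zpowers c').index ∣ 5 * 8 := by rw [h1]; exact hL
    exact Nat.dvd_of_mul_dvd_mul_left (by norm_num) h2
  have hnd : ¬ 5 ∣ (Subgroup.zpowers c').index := fun h => absurd (h.trans hidx) (by norm_num)
  let P : Sylow 5 L := (IsPGroup.of_card (p := 5) (n := 1) (by rw [hcard, pow_one]) : IsPGroup 5 (Subgroup.zpowers c')).toSylow hnd
  have hP : (P : Subgroup L) = Subgroup.zpowers c' := rfl
  have hn1 : Nat.card (Sylow 5 L) ∣ 8 := by
    have := P.card_dvd_index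
    rw [hP] at this
    exact this.trans hidx
  have hn2 := card_sylow_modEq_one 5 L
  have hn : Nat.card (Sylow 5 L) = 1 := by
    have hm : Nat.card (Sylow 5 L) ∈ Nat.divisors 8 := Nat.mem_divisors.2 ⟨hn1, by norm_num⟩
    have hdv : Nat.divisors 8 = {1, 2, 4, 8} := by decide
    rw [hdv] at hm
    simp only [Finset.mem_insert, Finset.mem_singleton] at hm
    rcases hm with h | h | h | h
    · exact h
    all_goals (rw [h] at hn2; exact absurd hn2 (by decide))
  have hsub : Subsingleton (Sylow 5 L) := (Nat.card_eq_one_iff_unique.1 hn).1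
  let a' : L := ⟨a, haL⟩
  have h1 : a' • P = P := Subsingleton.elim _ _
  have h2 : a' * c' * a'⁻¹ ∈ (P : Subgroup L) := by
    rw [← h1, Sylow.coe_subgroup_smul, Subgroup.mem_pointwise_smul_iff_inv_smul_mem]
    show (MulAut.conj a')⁻¹ • (a' * c' * a'⁻¹) ∈ (P : Subgroup L)
    have : (MulAut.conj a')⁻¹ • (a' * c' * a'⁻¹) = c' := by
      rw [← map_inv, MulAut.smul_def, MulAut.conj_apply]; group
    rw [this, hP]
    exact Subgroup.mem_zpowers c'
  rw [hP] at h2
  have h3' : a' * c' * a'⁻¹ ∈ Submonoid.powers c' := by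
    rwa [mem_powers_iff_mem_zpowers]
  obtain ⟨i, hi⟩ := h3'
  exact ⟨i, (congrArg Subtype.val hi).symm⟩

/-- elements with the relations of the quaternion group -/
theorem quat_five {α : Type*} [Finite α] (hα : Nat.card α = 5) {L : Subgroup (Equiv.Perm α)} (h3 : ¬ 3 ∣ Nat.card L)
    {c a b : Equiv.Perm α} (hcL : c ∈ L) (hc : orderOf c = 5) (haL : a ∈ L) (hbL : b ∈ L) (ha4 : a ^ 4 = 1)
    (hb : b * b = a * a) (hab : b * a * b⁻¹ = a⁻¹) : a = 1 ∨ b = 1 ∨ a * b = 1 := by
  obtain ⟨i, hi⟩ := conj_five hα h3 hcL haL hc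
  obtain ⟨j, hj⟩ := conj_five hα h3 hcL hbL hc
  have haba : a * b * a = b := by
    have h1 : b * a = a⁻¹ * b := by rw [← hab]; group
    rw [mul_assoc, h1, mul_inv_cancel_left]
  have hpow : ∀ {x : Equiv.Perm α} {l : ℕ}, x * c * x⁻¹ = c ^ l → ∀ k : ℕ, x * c ^ k * x⁻¹ = c ^ (l * k) := by
    intro x l hx k
    rw [← conj_pow, hx, ← pow_mul]
  have hmul : ∀ {x y : Equiv.Perm α} {l k : ℕ}, x * c * x⁻¹ = c ^ l → y * c * y⁻¹ = c ^ k →
      (x * y) * c * (x * y)⁻¹ = c ^ (l * k) := by
    intro x y l k hx hy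
    rw [← hpow hx k, ← hy]
    group
  have hinj : ∀ {l k : ℕ}, c ^ l = c ^ k → (l : ZMod 5) = (k : ZMod 5) := by
    intro l k h
    rw [ZMod.natCast_eq_natCast_iff]
    have := pow_eq_pow_iff_modEq.1 h
    rwa [hc] at this
  have e1 : c ^ (i * j * i) = c ^ j := by
    rw [← hmul (hmul hi hj) hi, haba, hj]
  have e2 : c ^ (j * j) = c ^ (i * i) := by
    rw [← hmul hj hj, ← hmul hi hi, hb]
  have hj0 : (j : ZMod 5) ≠ 0 := by
    intro h0
    have h1 : ((j : ℕ) : ZMod 5) = ((0 : ℕ) : ZMod 5) := by rw [h0, Nat.cast_zero]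
    rw [ZMod.natCast_eq_natCast_iff] at h1
    have h2 : c ^ j = c ^ 0 := by
      rw [pow_eq_pow_iff_modEq, hc]; exact h1
    rw [pow_zero, ← hj] at h2
    have h3 : c = 1 := by
      have h4 : c = b⁻¹ * (b * c * b⁻¹) * b := by group
      rw [h4, h2]; group
    rw [h3, orderOf_one] at hc
    omega
  have f1 := hinj e1
  have f2 := hinj e2
  push_cast at f1 f2
  have hcomm : ∀ {x : Equiv.Perm α} {l : ℕ}, x * c * x⁻¹ = c ^ l → (l : ZMod 5) = 1 → x * c = c * x := by
    intro x l hx hl
    have h1 : ((l : ℕ) : ZMod 5) = ((1 : ℕ) : ZMod 5) := by rw [hl, Nat.cast_one]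
    rw [ZMod.natCast_eq_natCast_iff] at h1
    have h2 : c ^ l = c ^ 1 := by
      rw [pow_eq_pow_iff_modEq, hc]; exact h1
    rw [pow_one, ← hx] at h2
    calc x * c = x * c * x⁻¹ * x := by group
      _ = c * x := by rw [h2]
  have hb4 : b ^ 4 = 1 := by
    have : b ^ 4 = (b * b) * (b * b) := by simp only [pow_succ, pow_zero, one_mul, mul_assoc]
    rw [this, hb, ← ha4]
    simp only [pow_succ, pow_zero, one_mul, mul_assoc]
  rcases zmod_five (i : ZMod 5) (j : ZMod 5) hj0 (by linear_combination f1) (by linear_combination -f2) with h | h | h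
  · exact Or.inl (eq_one_of_comm_five hα hc (hcomm hi h) ha4)
  · exact Or.inr (Or.inl (eq_one_of_comm_five hα hc (hcomm hj h) hb4))
  · refine Or.inr (Or.inr (eq_one_of_comm_five hα hc (hcomm (hmul hi hj) (by push_cast; exact h)) ?_))
    have : (a * b) ^ 4 = (a * b * a) * b * ((a * b * a) * b) := by simp only [pow_succ, pow_zero, one_mul, mul_assoc]
    rw [this, haba, ← hb4]
    simp only [pow_succ, pow_zero, one_mul, mul_assoc]

end Cfsg.Agent.H558.RV
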