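import Cfsg.Agent.H558.RV.Two
import Cfsg.Agent.H556.FHallGen
import Cfsg.Agent.H556.OmClosed

/-!
# Subgroups of odd index containing a frame (helper558)

`HF.oddClosed`, `HF.comm_odd` : `H` a subgroup of odd index, of order prime to three and to the characteristic, of a group
with a frame: `H` has an abelian normal 2-complement.
-/

set_option autoImplicit false

namespace Cfsg.Agent.H558.RV

open Module Cfsg.Agent.H167.OP Cfsg.Agent.H170.HL Cfsg.Agent.H170.Fl Cfsg.Agent.H553.ExtRed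
open Subgroup (mem_normalizer_iff mem_centralizer_iff)

variable {F : Type*} [Field F] {V : Type*} [AddCommGroup V] [Module F V] {G : Type*} [Group G]
  {ρ : Representation F G V} {m : ℕ} {κ : Type*} {x y : Fin m → G} {b : Basis κ F V} {ev : Fin m → κ → F}

/-- the stabiliser of all involutions -/
def St (x : Fin m → G) : Subgroup G where
  carrier := {g | ∀ k, g * (x k * x k) * g⁻¹ = x k * x k}
  one_mem' k := by simp
  mul_mem' {a c} ha hc k := by
    have h1 : a * c * (x k * x k) * (a * c)⁻¹ = a * (c * (x k * x k) * c⁻¹) * a⁻¹ := by group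
    rw [h1, hc, ha]
  inv_mem' {a} ha k := by
    have h1 := ha k
    have h2 : a⁻¹ * (x k * x k) * a⁻¹⁻¹ = a⁻¹ * (a * (x k * x k) * a⁻¹) * a⁻¹⁻¹ := by rw [h1]
    rw [h2]; group

theorem mem_St {x : Fin m → G} {g : G} : g ∈ St x ↔ ∀ k, g * (x k * x k) * g⁻¹ = x k * x k := Iff.rfl

theorem St.comm {g : G} (hg : g ∈ St x) (k : Fin m) : g * (x k * x k) = (x k * x k) * g := by
  calc g * (x k * x k) = g * (x k * x k) * g⁻¹ * g := by group
    _ = (x k * x k) * g := by rw [hg k]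

namespace Frm

/-- the supports are invariant -/
theorem inv_St (h : Frm ρ x y b ev) (h2 : (2 : F) ≠ 0) {g : G} (hg : g ∈ St x) (k : Fin m) :
    ∀ v ∈ E ρ (x k), ρ g v ∈ E ρ (x k) := by
  intro v hv
  rw [(h.qq k).hx.mem_E h2] at hv ⊢
  rw [← mul_ap, ← St.comm hg, mul_ap, hv, map_neg]

/-- the basis vectors outside of the supports -/
theorem out (h : Frm ρ x y b ev) (h2 : (2 : F) ≠ 0) (l : κ) : (∃ k, b l ∈ E ρ (x k)) ∨ ∀ k, ρ (x k) (b l) = b l := by
  by_contra hcon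
  push Not at hcon
  obtain ⟨hc1, k, hk⟩ := hcon
  apply hk
  have h4 : ρ (x k * x k * (x k * x k)) (b l) = b l := by
    have : x k * x k * (x k * x k) = 1 := by
      rw [← (h.qq k).hx.four]; simp only [pow_succ, pow_zero, one_mul, mul_assoc]
    rw [this, map_one, End.one_apply]
  have h5 : ρ (x k * x k) (b l) = (ev k l * ev k l) • b l := by
    rw [mul_ap, h.eig, map_smul, h.eig, smul_smul]
  rw [mul_ap, h5, map_smul, h5, smul_smul] at h4
  have h6 : (ev k l * ev k l * (ev k l * ev k l) - 1) • b l = 0 := by rw [sub_smul, h4, one_smul, sub_self]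
  have h7 : ev k l * ev k l * (ev k l * ev k l) = 1 := sub_eq_zero.1 ((smul_eq_zero.1 h6).resolve_right (b.ne_zero l))
  rcases mul_self_eq_one_iff.1 h7 with h8 | h8
  · exact (h.qq k).hx.fix (by rw [h5, h8, one_smul])
  · exfalso
    apply hc1 k
    rw [(h.qq k).hx.mem_E h2, h5, h8, neg_smul, one_smul]

/-- `St` acts by scalars on the basis vectors outside of the supports -/
theorem out_scalar [Fintype κ] (h : Frm ρ x y b ev) {l : κ} (hl : ∀ k, ρ (x k) (b l) = b l) {g : G} (hg : g ∈ St x) :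
    ∃ c : F, ρ g (b l) = c • b l := by
  have hev : ∀ k, ev k l = 1 := by
    intro k
    have h1 := hl k
    rw [h.eig] at h1
    have h3 : (ev k l - 1) • b l = 0 := by rw [sub_smul, h1, one_smul, sub_self]
    exact sub_eq_zero.1 ((smul_eq_zero.1 h3).resolve_right (b.ne_zero l))
  refine h.eq_smul (j := l) fun k => ?_
  rw [hev, one_smul]
  refine (h.qq k).hx.fix ?_
  rw [← mul_ap, ← St.comm hg, mul_ap, mul_ap ρ (x k) (x k), hl, hl]

/-- elements which are trivial on the supports and on the other basis vectors -/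
theorem eq_one (h : Frm ρ x y b ev) (hinj : Function.Injective ρ) (h2 : (2 : F) ≠ 0) {t : G}
    (h1 : ∀ k, ∀ v ∈ E ρ (x k), ρ t v = v) (h3 : ∀ l, (∀ k, ρ (x k) (b l) = b l) → ρ t (b l) = b l) : t = 1 := by
  apply hinj
  apply b.ext
  intro l
  rw [map_one, End.one_apply]
  rcases h.out h2 l with ⟨k, hk⟩ | hk
  · exact h1 k _ hk
  · exact h3 l hk

/-- commutators of elements of `St` which are trivial on the supports -/
theorem comm_eq_one [Fintype κ] (h : Frm ρ x y b ev) (hinj : Function.Injective ρ) (h2 : (2 : F) ≠ 0) {a c : G}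
    (ha : a ∈ St x) (hc : c ∈ St x) (h1 : ∀ k, ∀ v ∈ E ρ (x k), ρ (a * c * a⁻¹ * c⁻¹) v = v) :
    a * c * a⁻¹ * c⁻¹ = 1 := by
  refine h.eq_one hinj h2 h1 fun l hl => ?_
  obtain ⟨α, hα⟩ := h.out_scalar hl ha
  obtain ⟨γ, hγ⟩ := h.out_scalar hl hc
  have h3 : a * c * a⁻¹ * c⁻¹ = (a * c) * (c * a)⁻¹ := by group
  have h4 : ρ (a * c) (b l) = ρ (c * a) (b l) := by
    rw [mul_ap, mul_ap, hα, hγ, map_smul, map_smul, hα, hγ, smul_smul, smul_smul, mul_comm]
  have h5 : ρ (c * a) (ρ (c * a)⁻¹ (b l)) = b l := ap_inv ρ (c * a) (b l)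
  -- `(c a)⁻¹ b` is a multiple of `b`
  obtain ⟨δ, hδ⟩ := h.out_scalar hl ((St x).inv_mem ((St x).mul_mem hc ha))
  rw [h3, mul_ap, hδ, map_smul, h4, ← map_smul, ← hδ, h5]

end Frm

namespace HF

variable {H : Subgroup G}

/-- **`r`-elements of `H` centralise the 2-subgroups they normalise** -/
theorem cen [IsAlgClosed F] [Finite G] [FiniteDimensional F V] [Fintype κ] (h : HF ρ H) (hf : Frm ρ x y b ev)
    (hH : ∀ i, x i ∈ H ∧ y i ∈ H) {r n : ℕ} (hr : r.Prime) (h5 : 5 ≤ r) {g : G} (hg : g ∈ H) (hgn : g ^ r ^ n = 1)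
    {D : Subgroup G} (hDH : D ≤ H) (hD : IsPGroup 2 D) (hn : Nrm g D) : Cen g D := by
  have hgo : Odd (orderOf g) := by
    refine Odd.of_dvd_nat (n := r ^ n) ?_ (orderOf_dvd_of_pow_eq_one hgn)
    exact (hr.odd_of_ne_two (by omega)).pow
  have hgS : g ∈ St x := fun k => h.fix hf hH hg hgo k
  -- the elements of `D ⊓ St`
  have key : ∀ d ∈ D ⊓ St x, g * d * g⁻¹ * d⁻¹ = 1 := by
    intro d hd
    refine hf.comm_eq_one h.inj h.two hgS hd.2 fun k v hv => ?_
    let J : Subgroup G := St x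
    let σ : Representation F J (E ρ (x k)) :=
      Cfsg.Agent.H575.Dim.sub ρ J.subtype (E ρ (x k)) fun g u hu => hf.inv_St h.two g.2 k u hu
    let D' : Subgroup J := D.subgroupOf J
    have hD' : IsPGroup 2 D' := hD.comap_of_injective J.subtype J.subtype_injective
    have h6 := partA2 σ h.two (le_of_eq ((hf.qq k).finrank_E h.inj h.two)) hr h5 (y := ⟨g, hgS⟩) (n := n)
      (Subtype.ext hgn) hD' (fun e he => by
        rw [Subgroup.mem_subgroupOf] at he ⊢
        exact hn e he) ⟨d, hd.2⟩ (Subgroup.mem_subgroupOf.2 hd.1)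
    have h7 := congrArg (fun φ : End F (E ρ (x k)) => ((φ ⟨v, hv⟩ : E ρ (x k)) : V)) h6
    exact h7
  intro d hd
  have hcD : g * d * g⁻¹ * d⁻¹ ∈ D := D.mul_mem (hn d hd) (D.inv_mem hd)
  have hcS : g * d * g⁻¹ * d⁻¹ ∈ St x := by
    obtain ⟨τ, hτ⟩ := h.exists_perm hf hH (hDH hd)
    have h1 : (g, (1 : Equiv.Perm (Fin m))) ∈ NZ x := hgS
    have h3 := (NZ x).mul_mem ((NZ x).mul_mem ((NZ x).mul_mem h1 hτ) ((NZ x).inv_mem h1)) ((NZ x).inv_mem hτ)
    have h4 : (g, (1 : Equiv.Perm (Fin m))) * (d, τ) * (g, (1 : Equiv.Perm (Fin m)))⁻¹ * (d, τ)⁻¹ =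
        (g * d * g⁻¹ * d⁻¹, 1) := by
      simp
    rw [h4] at h3
    exact h3
  have h1 := key _ ⟨hcD, hcS⟩
  have h3 : g * (g * d * g⁻¹ * d⁻¹) = (g * d * g⁻¹ * d⁻¹) * g := by
    have h4 : g * (g * d * g⁻¹ * d⁻¹) = (g * (g * d * g⁻¹ * d⁻¹) * g⁻¹ * (g * d * g⁻¹ * d⁻¹)⁻¹) *
        ((g * d * g⁻¹ * d⁻¹) * g) := by group
    rw [h4, h1, one_mul]
  obtain ⟨k, hk⟩ := hD ⟨_, hcD⟩
  have hk' : (g * d * g⁻¹ * d⁻¹) ^ 2 ^ k = 1 := by simpa using congrArg Subtype.val hk
  have hcop : (2 ^ k).Coprime (r ^ n) :=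
    Nat.Coprime.pow _ _ ((Nat.coprime_primes Nat.prime_two hr).mpr (by omega))
  have h6 : g * d * g⁻¹ * d⁻¹ = 1 := comm_order hgn hk' hcop h3 rfl
  have h7 : g * d = (g * d * g⁻¹ * d⁻¹) * (d * g) := by group
  rw [h7, h6, one_mul]

/-- `H` has a normal 2-complement -/
theorem oddClosed' [IsAlgClosed F] [Finite G] [FiniteDimensional F V] [Fintype κ] (h : HF ρ H) (hf : Frm ρ x y b ev)
    (hH : ∀ i, x i ∈ H ∧ y i ∈ H) : OddClosed H := by
  refine Cfsg.Agent.H556.OmClosed.oddClosed_of_cen ?_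
  intro r n hr hr2 hd g hg R hR hgR
  have h5 : 5 ≤ r := by
    by_contra hcon
    push Not at hcon
    have := hr.two_le
    interval_cases r
    · exact hr2 rfl
    · exact h.three hd
    · exact absurd hr (by norm_num)
  have h6 := h.cen hf hH hr h5 (g := (g : G)) g.2 (n := n)
    (by exact_mod_cast congrArg Subtype.val hg) (D := R.map H.subtype) (Subgroup.map_subtype_le _) (hR.map _) (by
      rintro _ ⟨d, hd, rfl⟩
      exact ⟨g * d * g⁻¹, (mem_normalizer_iff.mp hgR d).mp hd, rfl⟩)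
  rw [mem_centralizer_iff]
  intro d hd
  exact Subtype.ext (h6 d ⟨d, hd, rfl⟩).symm

/-- elements of odd order commute -/
theorem comm_odd' [IsAlgClosed F] [Finite G] [FiniteDimensional F V] [Fintype κ] (h : HF ρ H) (hf : Frm ρ x y b ev)
    (hH : ∀ i, x i ∈ H ∧ y i ∈ H) {s t : G} (hs : s ∈ H) (ht : t ∈ H) (hso : Odd (orderOf s)) (hto : Odd (orderOf t)) :
    s * t = t * s := by
  have hcl := h.oddClosed' hf hH
  let A : Subgroup G :=
    { carrier := {x | x ∈ H ∧ Odd (orderOf x)}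
      one_mem' := ⟨H.one_mem, by rw [orderOf_one]; exact odd_one⟩
      mul_mem' := by
        rintro x y ⟨hx, hx1⟩ ⟨hy, hy1⟩
        refine ⟨H.mul_mem hx hy, ?_⟩
        have h1 := hcl ⟨x, hx⟩ ⟨y, hy⟩ (by rwa [Subgroup.orderOf_mk]) (by rwa [Subgroup.orderOf_mk])
        rw [← Subgroup.orderOf_coe] at h1
        exact h1
      inv_mem' := by
        rintro x ⟨hx, hx1⟩
        exact ⟨H.inv_mem hx, by rwa [orderOf_inv]⟩ }
  have hAH : A ≤ H := fun x hx => hx.1
  have hAS : A ≤ St x := fun a ha k => h.fix hf hH ha.1 ha.2 k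
  have hcA : (Nat.card A : F) ≠ 0 := by
    intro h0
    obtain ⟨c, hc⟩ := Subgroup.card_dvd_of_le hAH
    exact h.card (by rw [hc, Nat.cast_mul, h0, zero_mul])
  have hpA : ∀ r : ℕ, r.Prime → r ∣ Nat.card A → 2 < r := by
    intro r hr hd
    have hr2 : r ≠ 2 := by
      rintro rfl
      have : Fact (Nat.Prime 2) := ⟨Nat.prime_two⟩
      obtain ⟨x, hx⟩ := exists_prime_orderOf_dvd_card' (G := A) 2 hd
      have h1 := x.2.2
      rw [Subgroup.orderOf_coe, hx] at h1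
      exact absurd h1 (by decide)
    have := hr.two_le
    omega
  have key : s * t * s⁻¹ * t⁻¹ = 1 := by
    refine hf.comm_eq_one h.inj h.two (hAS ⟨hs, hso⟩) (hAS ⟨ht, hto⟩) fun k v hv => ?_
    have hU : ∀ g ∈ A, ∀ u ∈ E ρ (x k), ρ g u ∈ E ρ (x k) := fun g hg u hu => hf.inv_St h.two (hAS hg) k u hu
    let σ : Representation F A (E ρ (x k)) :=
      Cfsg.Agent.H575.Dim.sub ρ A.subtype (E ρ (x k)) fun g u hu => hU g g.2 u hu
    have h1 := Cfsg.Agent.H556.SmallAb.comm_of_small' σ hcA (fun r hr hd' => by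
      rw [(hf.qq k).finrank_E h.inj h.two]; exact hpA r hr hd') ⟨s, hs, hso⟩ ⟨t, ht, hto⟩
    have hst : ∀ u ∈ E ρ (x k), ρ (s * t) u = ρ (t * s) u := fun u hu =>
      congrArg Subtype.val (LinearMap.congr_fun h1 ⟨u, hu⟩)
    have h3 : s * t * s⁻¹ * t⁻¹ = (s * t) * (t * s)⁻¹ := by group
    have hmem : (t * s)⁻¹ ∈ A := A.inv_mem (A.mul_mem ⟨ht, hto⟩ ⟨hs, hso⟩)
    rw [h3, mul_ap, hst _ (hU _ hmem v hv), ap_inv]
  calc s * t = (s * t * s⁻¹ * t⁻¹) * (t * s) := by group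
    _ = t * s := by rw [key, one_mul]

/-- **the structure of `H`** -/
theorem main [IsAlgClosed F] [Finite G] [FiniteDimensional F V] [Fintype κ] (h : HF ρ H) (hf : Frm ρ x y b ev) :
    OddClosed H ∧ ∀ s ∈ H, ∀ t ∈ H, Odd (orderOf s) → Odd (orderOf t) → s * t = t * s := by
  obtain ⟨x', y', b', hf', hH⟩ := h.exists_frame hf
  exact ⟨h.oddClosed' hf' hH, fun s hs t ht hso hto => h.comm_odd' hf' hH hs ht hso hto⟩

end HF

end Cfsg.Agent.H558.RV
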