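import Cfsg.Agent.H558.RV.Swap
import Cfsg.Agent.H558.RV.Main

/-!
# Frames in `SL_n(q)`, `SU_n(q)`, `Sp_2m(q)` over the algebraic closure (helper558)
-/

set_option autoImplicit false

namespace Cfsg.Agent.H558.RV

open Matrix Module Cfsg.Agent.H558.Deg4Data Cfsg.Agent.H167.OP Cfsg.Agent.H170.HL Cfsg.Agent.H553.ExtRed

section Conv

variable {K : Type*} [Field K] {ι : Type*} [Fintype ι] [DecidableEq ι] {G : Type*} [Group G]

/-- The representation given by matrices. -/
noncomputable def linRep (ρ : G →* Matrix ι ι K) : Representation K G (ι → K) :=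
  (Matrix.toLinAlgEquiv' (R := K) (n := ι)).toAlgHom.toRingHom.toMonoidHom.comp ρ

theorem linRep_apply (ρ : G →* Matrix ι ι K) (g : G) (v : ι → K) : linRep ρ g v = ρ g *ᵥ v := rfl

theorem linRep_eq (ρ : G →* Matrix ι ι K) (g : G) : linRep ρ g = Matrix.toLin' (ρ g) := rfl

theorem linRep_injective {ρ : G →* Matrix ι ι K} (hρ : Function.Injective ρ) : Function.Injective (linRep ρ) := by
  intro g h hgh
  apply hρ
  exact (Matrix.toLinAlgEquiv' (R := K) (n := ι)).injective hgh

theorem rk_linRep (ρ : G →* Matrix ι ι K) (g : G) : rk (linRep ρ) g = (ρ g - 1).rank := by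
  have h1 : linRep ρ g - 1 = Matrix.toLin' (ρ g - 1) := by
    rw [map_sub, Matrix.toLin'_one, linRep_eq]
    rfl
  unfold rk
  rw [h1]
  rfl

/-- a frame of matrices gives a frame -/
theorem FrmM.exists_frm {ρ : G →* Matrix ι ι K} (h : FrmM ρ) :
    ∃ (m : ℕ) (x y : Fin m → G) (b : Basis ι K (ι → K)) (ev : Fin m → ι → K), Frm (linRep ρ) x y b ev := by
  obtain ⟨m, x, y, b, ev, h1, h2, h3, h4, h5, h6⟩ := h
  refine ⟨m, x, y, b, ev, fun i => ⟨⟨(h1 i).four, (h1 i).nx, ?_⟩, ⟨?_, (h1 i).ny, ?_⟩, (h1 i).sq, (h1 i).inv, h2 i⟩, h3, h4, h5,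
    h6⟩
  · rw [rk_linRep]; exact (h1 i).rk
  · have h7 : y i ^ 4 = y i * y i * (y i * y i) := by simp only [pow_succ, pow_zero, one_mul, mul_assoc]
    rw [h7, (h1 i).sq, ← (h1 i).four]
    simp only [pow_succ, pow_zero, one_mul, mul_assoc]
  · rw [(h1 i).sq, rk_linRep]; exact (h1 i).rk

/-- the result for Hall subgroups of groups with a frame -/
theorem FrmM.closed [IsAlgClosed K] [Finite G] {ρ : G →* Matrix ι ι K} (h : FrmM ρ) (hinj : Function.Injective ρ) {p : ℕ}
    [CharP K p] (hp : p.Prime) {π : Set ℕ} (h2π : 2 ∈ π) (h3π : 3 ∉ π) (hpπ : p ∉ π) {H : Subgroup G}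
    (hH : ∀ q : ℕ, q.Prime → q ∣ Nat.card H → q ∈ π) (hH' : ∀ q : ℕ, q.Prime → q ∈ π → ¬ q ∣ H.index) :
    OddClosed H ∧ ∀ s ∈ H, ∀ t ∈ H, Odd (orderOf s) → Odd (orderOf t) → s * t = t * s := by
  obtain ⟨m, x, y, b, ev, hf⟩ := h.exists_frm
  have hHF : HF (linRep ρ) H := by
    refine ⟨linRep_injective hinj, two_ne_zero_of hp (fun h => hpπ (h ▸ h2π)), hH' 2 Nat.prime_two h2π,
      fun h => h3π (hH 3 Nat.prime_three h), fun h => ?_⟩
    rw [CharP.cast_eq_zero_iff K p] at h
    exact hpπ (hH p hp h)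
  exact hHF.main hf

end Conv

/-- `S` is a quotient by a central subgroup of a linear group with a frame over an algebraically closed field. -/
def HasFrm (S : Type*) [Group S] (p : ℕ) : Prop :=
  ∃ (K : Type) (_ : Field K) (_ : IsAlgClosed K) (ι : Type) (_ : Fintype ι) (_ : DecidableEq ι) (G : Type) (_ : Group G)
    (_ : Finite G) (ρ : G →* Matrix ι ι K) (f : G →* S),
    CharP K p ∧ Function.Injective ρ ∧ FrmM ρ ∧ Function.Surjective f ∧ f.ker ≤ Subgroup.center G

theorem exists_sq_neg_one_of_closed (K : Type*) [Field K] [IsAlgClosed K] : ∃ I : K, I * I = -1 := by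
  obtain ⟨z, hz⟩ := IsAlgClosed.exists_eq_mul_self (-1 : K)
  exact ⟨z, hz.symm⟩

theorem ker_le_center {G S : Type*} [Group G] [Group S] (e : S ≃* (G ⧸ Subgroup.center G)) :
    (e.symm.toMonoidHom.comp (QuotientGroup.mk' (Subgroup.center G))).ker ≤ Subgroup.center G := by
  intro z hz
  rw [MonoidHom.mem_ker] at hz
  have h2 : (QuotientGroup.mk' (Subgroup.center G)) z = 1 := by
    have h3 := congrArg e hz
    rw [map_one] at h3
    rw [← h3]
    exact (e.apply_symm_apply _).symm
  exact (QuotientGroup.eq_one_iff z).1 h2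

theorem hasFrm_PSL {S : Type*} [Group S] {F : Type} [Field F] [Fintype F] {p : ℕ} [CharP F p] (hp : p.Prime)
    (hp2 : p ≠ 2) {n : ℕ} (e : S ≃* Matrix.ProjectiveSpecialLinearGroup (Fin n) F) : HasFrm S p := by
  refine ⟨AlgebraicClosure F, inferInstance, inferInstance, Fin n, inferInstance, inferInstance,
    Matrix.SpecialLinearGroup (Fin n) F, inferInstance, inferInstance,
    rhoSL (algebraMap F (AlgebraicClosure F)) n, e.symm.toMonoidHom.comp (QuotientGroup.mk' _),
    charP_of_injective_algebraMap (algebraMap F _).injective p, rhoSL_injective _ n,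
    frmM_SL _ (two_ne_zero_of hp hp2) (exists_sq_neg_one_of_closed _) n,
    e.symm.surjective.comp (QuotientGroup.mk'_surjective _), ker_le_center e⟩

theorem hasFrm_PSp {S : Type*} [Group S] {F : Type} [Field F] [Fintype F] {p : ℕ} [CharP F p] (hp : p.Prime)
    (hp2 : p ≠ 2) {m : ℕ} (e : S ≃* PSp m F) : HasFrm S p := by
  refine ⟨AlgebraicClosure F, inferInstance, inferInstance, Fin m ⊕ Fin m, inferInstance, inferInstance,
    Matrix.symplecticGroup (Fin m) F, inferInstance, inferInstance,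
    rhoSp (algebraMap F (AlgebraicClosure F)) m, e.symm.toMonoidHom.comp (QuotientGroup.mk' _),
    charP_of_injective_algebraMap (algebraMap F _).injective p, rhoSp_injective _ m,
    frmM_Sp _ (two_ne_zero_of hp hp2) (exists_sq_neg_one_of_closed _) m,
    e.symm.surjective.comp (QuotientGroup.mk'_surjective _), ker_le_center e⟩

theorem hasFrm_PSU {S : Type*} [Group S] {F : Type} [Field F] [Fintype F] {p : ℕ} [CharP F p] (hp : p.Prime)
    (hp2 : p ≠ 2) {n q : ℕ} (hF : Fintype.card F = q ^ 2) (e : S ≃* PSU n F q) : HasFrm S p := by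
  have hKc : Nat.card F = q ^ 2 := by rw [Nat.card_eq_fintype_card, hF]
  have hq : Odd q := by
    have := odd_card_of (K := F) hp hp2
    rw [hF, pow_two, Nat.odd_mul] at this
    exact this.1
  refine ⟨AlgebraicClosure F, inferInstance, inferInstance, Fin n, inferInstance, inferInstance,
    SU n F q, inferInstance, inferInstance, rhoSU (algebraMap F (AlgebraicClosure F)) n q,
    e.symm.toMonoidHom.comp (QuotientGroup.mk' _),
    charP_of_injective_algebraMap (algebraMap F _).injective p, rhoSU_injective _ n q,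
    frmM_SU _ hF (two_ne_zero_of hp hp2) (exists_sq_neg_one hq hKc),
    e.symm.surjective.comp (QuotientGroup.mk'_surjective _), ker_le_center e⟩

end Cfsg.Agent.H558.RV
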