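import Cfsg.Agent.H558.RV.QPair
import Cfsg.Agent.H558.RV.CardFour

/-!
# No irreducible groups of degree three or four generated by quaternion groups moving two dimensions (helper558)

The order of the group is prime to three and to the characteristic.
-/

set_option autoImplicit false

namespace Cfsg.Agent.H558.RV

open Module Cfsg.Agent.H189.FTRep Cfsg.Agent.H574.Deg4 Cfsg.Agent.H574.Deg4.Cl
open Subgroup (center)
open scoped commutatorElement

section form

variable {G : Type*} [Group G] {M : Subgroup (G ⧸ center G)}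

/-- the commutator form on the central quotient -/
noncomputable def bt (a b : G ⧸ center G) : ZMod 2 := cm a.out b.out

theorem mk_out' (a : G ⧸ center G) : QuotientGroup.mk' (center G) a.out = a := QuotientGroup.out_eq' a

theorem cm_congr_left {ε : G} (h : Cl (M.comap (QuotientGroup.mk' (center G))) ε) {n n' b : G}
    (hn : QuotientGroup.mk' (center G) n ∈ M) (hb : QuotientGroup.mk' (center G) b ∈ M)
    (he : QuotientGroup.mk' (center G) n = QuotientGroup.mk' (center G) n') : cm n b = cm n' b := by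
  have h1 : n⁻¹ * n' ∈ center G := QuotientGroup.eq.1 he
  have h2 : n⁻¹ * n' ∈ M.comap (QuotientGroup.mk' (center G)) := by
    show QuotientGroup.mk' (center G) (n⁻¹ * n') ∈ M
    have h4 : QuotientGroup.mk' (center G) (n⁻¹ * n') = 1 := (QuotientGroup.eq_one_iff _).2 h1
    rw [h4]
    exact one_mem _
  have h3 : n' = n * (n⁻¹ * n') := by group
  rw [h3, h.cm_mul hn h2 hb, cm_center h1, add_zero]

theorem bt_eq {ε : G} (h : Cl (M.comap (QuotientGroup.mk' (center G))) ε) {a b : G}
    (ha : QuotientGroup.mk' (center G) a ∈ M) (hb : QuotientGroup.mk' (center G) b ∈ M) :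
    bt (QuotientGroup.mk' (center G) a) (QuotientGroup.mk' (center G) b) = cm a b := by
  unfold bt
  have ha' : QuotientGroup.mk' (center G) (QuotientGroup.mk' (center G) a).out = QuotientGroup.mk' (center G) a := mk_out' _
  have hb' : QuotientGroup.mk' (center G) (QuotientGroup.mk' (center G) b).out = QuotientGroup.mk' (center G) b := mk_out' _
  rw [cm_congr_left h (by rw [ha']; exact ha) (by rw [hb']; exact hb) ha', cm_symm,
    cm_congr_left h (by rw [hb']; exact hb) ha hb', cm_symm]

theorem MS.fm (h : MS M) (h16 : Nat.card M = 16) : FM M bt := by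
  obtain ⟨ε, hε⟩ := h.cl
  have hsurj : Function.Surjective (QuotientGroup.mk' (center G)) := QuotientGroup.mk'_surjective _
  refine ⟨h.nrm, h.min, h.sq, h16, ?_, ?_, ?_, ?_, ?_⟩
  · intro a ha b hb c hc
    obtain ⟨a, rfl⟩ := hsurj a
    obtain ⟨b, rfl⟩ := hsurj b
    obtain ⟨c, rfl⟩ := hsurj c
    rw [← map_mul, bt_eq hε (by rw [map_mul]; exact mul_mem ha hb) hc, bt_eq hε ha hc, bt_eq hε hb hc]
    exact hε.cm_mul ha hb hc
  · intro a _ b _
    exact cm_symm _ _
  · intro a _
    exact cm_self _
  · intro g a ha b hb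
    obtain ⟨a, rfl⟩ := hsurj a
    obtain ⟨b, rfl⟩ := hsurj b
    obtain ⟨g, rfl⟩ := hsurj g
    have ha' : QuotientGroup.mk' (center G) (g * a * g⁻¹) ∈ M := by
      rw [map_mul, map_mul, map_inv]; exact h.nrm.conj_mem _ ha _
    have hb' : QuotientGroup.mk' (center G) (g * b * g⁻¹) ∈ M := by
      rw [map_mul, map_mul, map_inv]; exact h.nrm.conj_mem _ hb _
    rw [← map_inv, ← map_mul, ← map_mul, ← map_mul, ← map_mul, bt_eq hε ha' hb', bt_eq hε ha hb]
    have h1 : ⁅g * a * g⁻¹, g * b * g⁻¹⁆ = g * ⁅a, b⁆ * g⁻¹ := by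
      rw [commutatorElement_def, commutatorElement_def]; group
    unfold Cfsg.Agent.H574.Deg4.cm
    rw [h1]
    by_cases h2 : ⁅a, b⁆ = 1
    · rw [if_pos h2, if_pos (by rw [h2, mul_one, mul_inv_cancel])]
    · rw [if_neg h2, if_neg]
      intro h4
      apply h2
      have h5 : ⁅a, b⁆ = g⁻¹ * (g * ⁅a, b⁆ * g⁻¹) * g := by group
      rw [h5, h4]; group
  · intro a ha hb
    obtain ⟨a, rfl⟩ := hsurj a
    refine (QuotientGroup.eq_one_iff _).2 (hε.ctr a ha fun b hbM => ?_)
    have h1 := hb _ (show QuotientGroup.mk' (center G) b ∈ M from hbM)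
    rw [bt_eq hε ha hbM] at h1
    exact cm_eq_zero.1 h1

end form

universe u v w

variable {k : Type u} {V : Type v} {G : Type w} [Field k] [AddCommGroup V] [Module k V] [Group G]

/-- an element with non-zero trace acting trivially on `M` is central -/
theorem central_of_trace [IsAlgClosed k] [FiniteDimensional k V] [Finite G] (ρ : G →* End k V)
    (hinj : Function.Injective ρ) (hirr : Irr ρ) (hd : finrank k V = 4) {M : Subgroup (G ⧸ center G)} (h : MS M)
    (h16 : Nat.card M = 16) {w : G}
    (hw : ∀ m ∈ M, QuotientGroup.mk' (center G) w * m * (QuotientGroup.mk' (center G) w)⁻¹ = m)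
    (htr : LinearMap.trace k V (ρ w) ≠ 0) : w ∈ center G := by
  classical
  have hnt : Nontrivial V := hirr.1
  have hsc : ∀ z ∈ center G, ∃ c : k, ∀ v, ρ z v = c • v := fun z hz => scalar_of_central ρ hirr hz
  obtain ⟨ε, hε⟩ := h.cl
  set mk : G →* G ⧸ center G := QuotientGroup.mk' (center G) with hmk
  have hsurj : Function.Surjective mk := QuotientGroup.mk'_surjective _
  have hker : ∀ g, mk g = 1 ↔ g ∈ center G := fun g => QuotientGroup.eq_one_iff g
  set N : Subgroup G := M.comap mk with hN
  -- `w` commutes with `N`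
  have hcomm : ∀ n ∈ N, n * w = w * n := by
    intro n hn
    have h1 : n * w * n⁻¹ * w⁻¹ ∈ center G := by
      rw [← hker, map_mul, map_mul, map_mul, map_inv, map_inv]
      have h2 := hw _ hn
      calc mk n * mk w * (mk n)⁻¹ * (mk w)⁻¹ = mk n * (mk w * (mk n) * (mk w)⁻¹)⁻¹ := by group
        _ = 1 := by rw [h2, mul_inv_cancel]
    obtain ⟨c, hc⟩ := hsc _ h1
    have h3 : ρ (n * w * n⁻¹) = c • ρ w := by
      have h4 : n * w * n⁻¹ = (n * w * n⁻¹ * w⁻¹) * w := by group
      ext v
      rw [h4, map_mul, End.mul_apply, hc, LinearMap.smul_apply]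
    have h4 : LinearMap.trace k V (ρ (n * w * n⁻¹)) = LinearMap.trace k V (ρ w) := by
      rw [map_mul, LinearMap.trace_mul_comm, ← map_mul, ← mul_assoc, inv_mul_cancel, one_mul]
    rw [h3, map_smul, smul_eq_mul] at h4
    have hc1 : c = 1 := by
      have h5 : (c - 1) * LinearMap.trace k V (ρ w) = 0 := by rw [sub_mul, h4, one_mul, sub_self]
      exact sub_eq_zero.1 ((mul_eq_zero.1 h5).resolve_right htr)
    rw [hc1, one_smul] at h3
    have h5 := hinj h3
    calc n * w = n * w * n⁻¹ * n := by group
      _ = w * n := by rw [h5]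
  -- `N` spans
  have hli := linInd_quot ρ hinj N hsc h.cm hε.ctr
  have hcard : Nat.card (N ⧸ (center G).subgroupOf N) = 16 := by
    rw [← h16]
    let φ : N →* M := (mk.comp N.subtype).codRestrict M (fun b => b.2)
    have hφs : Function.Surjective φ := by
      rintro ⟨a, ha⟩
      obtain ⟨b, rfl⟩ := hsurj a
      exact ⟨⟨b, ha⟩, rfl⟩
    have hφk : φ.ker = (center G).subgroupOf N := by
      ext b
      rw [MonoidHom.mem_ker, Subgroup.mem_subgroupOf, ← hker]
      constructor
      · intro h1; exact congrArg Subtype.val h1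
      · intro h1; exact Subtype.ext h1
    rw [← hφk]
    exact Nat.card_congr (QuotientGroup.quotientKerEquivOfSurjective φ hφs).toEquiv
  have := Fintype.ofFinite (N ⧸ (center G).subgroupOf N)
  have hspan := hli.span_eq_top_of_card_eq_finrank' (by
    rw [← Nat.card_eq_fintype_card, hcard, Module.finrank_linearMap, hd])
  let A : Submodule k (End k V) := LinearMap.ker (LinearMap.mulLeft k (ρ w) - LinearMap.mulRight k (ρ w))
  have hA : A = ⊤ := by
    rw [eq_top_iff, ← hspan, Submodule.span_le]
    rintro _ ⟨i, rfl⟩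
    show (LinearMap.mulLeft k (ρ w) - LinearMap.mulRight k (ρ w)) (ρ (i.out : G)) = 0
    rw [LinearMap.sub_apply, LinearMap.mulLeft_apply, LinearMap.mulRight_apply, sub_eq_zero, ← map_mul, ← map_mul,
      hcomm _ i.out.2]
  rw [Subgroup.mem_center_iff]
  intro g
  apply hinj
  have h1 : ρ g ∈ A := by rw [hA]; trivial
  have h2 : (LinearMap.mulLeft k (ρ w) - LinearMap.mulRight k (ρ w)) (ρ g) = 0 := h1
  rw [LinearMap.sub_apply, LinearMap.mulLeft_apply, LinearMap.mulRight_apply, sub_eq_zero, ← map_mul, ← map_mul] at h2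
  exact h2.symm

/-- **no irreducible group of degree three or four** -/
theorem irr_false [IsAlgClosed k] [FiniteDimensional k V] [Finite G] (ρ : G →* End k V)
    (hinj : Function.Injective ρ) (hirr : Irr ρ) (hd3 : 3 ≤ finrank k V) (hd : finrank k V ≤ 4)
    (h3 : ¬ 3 ∣ Nat.card G) (hk : (Nat.card G : k) ≠ 0) (h2 : (2 : k) ≠ 0) {S : Set G} (hS : ∀ s ∈ S, Q4 ρ s)
    (hgen : Subgroup.closure S = ⊤) {x y : G} (hxy : QQ ρ x y) : False := by
  classical
  have hnt : Nontrivial V := hirr.1
  have hinv : x⁻¹ ≠ x := by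
    intro h1
    apply hxy.sq_ne hinj
    nth_rewrite 1 [← h1]
    rw [inv_mul_cancel]
  have habN : ∀ A : Subgroup G, A.Normal → (∀ a ∈ A, ∀ b ∈ A, a * b = b * a) → A ≤ center G := fun A hA hab =>
    ab_central ρ hinj h2 hirr.2 hd3 h3 hk hS hgen hA hab
  obtain ⟨M, hM⟩ := exists_ms ρ hinj hirr hd h3 hk habN (by
    intro hc
    apply hinv
    rw [← hxy.inv, hc y x, mul_inv_cancel_right])
  rcases hM.card with h4 | h16
  · exact hM.card_ne_four h3 h4
  -- the dimension
  obtain ⟨ε, hε⟩ := hM.cl
  have hsc : ∀ z ∈ center G, ∃ c : k, ∀ v, ρ z v = c • v := fun z hz => scalar_of_central ρ hirr hz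
  have hd4 : finrank k V = 4 := by
    by_contra hne
    have hlt : finrank k V ≤ 3 := by omega
    have hcq := card_quot_le ρ hinj (M.comap (QuotientGroup.mk' (center G))) hsc hM.cm hε.ctr
    have h5 := hcq.trans (Nat.mul_le_mul hlt hlt)
    have hcard : Nat.card (M.comap (QuotientGroup.mk' (center G)) ⧸
        (center G).subgroupOf (M.comap (QuotientGroup.mk' (center G)))) = 16 := by
      rw [← h16]
      let mk : G →* G ⧸ center G := QuotientGroup.mk' (center G)
      have hsurj : Function.Surjective mk := QuotientGroup.mk'_surjective _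
      have hker : ∀ g, mk g = 1 ↔ g ∈ center G := fun g => QuotientGroup.eq_one_iff g
      let φ : (M.comap mk) →* M := (mk.comp (M.comap mk).subtype).codRestrict M (fun b => b.2)
      have hφs : Function.Surjective φ := by
        rintro ⟨a, ha⟩
        obtain ⟨b, rfl⟩ := hsurj a
        exact ⟨⟨b, ha⟩, rfl⟩
      have hφk : φ.ker = (center G).subgroupOf (M.comap mk) := by
        ext b
        rw [MonoidHom.mem_ker, Subgroup.mem_subgroupOf, ← hker]
        constructor
        · intro h1; exact congrArg Subtype.val h1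
        · intro h1; exact Subtype.ext h1
      have h6 : Nat.card (M.comap mk ⧸ (center G).subgroupOf (M.comap mk)) = Nat.card M := by
        rw [← hφk]
        exact Nat.card_congr (QuotientGroup.quotientKerEquivOfSurjective φ hφs).toEquiv
      exact h6
    rw [hcard] at h5
    omega
  obtain ⟨tx, ty, txy⟩ := hxy.trace_ne hinj h2 hd4
  have hx4 : (QuotientGroup.mk' (center G) x) ^ 4 = 1 := by rw [← map_pow, hxy.hx.four, map_one]
  have key : ∀ w : G, w ∈ center G → w * x * w⁻¹ = x := by
    intro w hw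
    rw [← Subgroup.mem_center_iff.1 hw x, mul_inv_cancel_right]
  have h3' : ¬ 3 ∣ Nat.card (G ⧸ center G) := fun hh => h3 (hh.trans (Subgroup.card_quotient_dvd_card _))
  rcases (hM.fm h16).quat h3' (x := QuotientGroup.mk' (center G) x) (y := QuotientGroup.mk' (center G) y) hx4
    (by rw [← map_mul, hxy.sq, map_mul]) (by rw [← map_inv, ← map_inv, ← map_mul, ← map_mul, hxy.inv]) with h1 | h1 | h1
  · have h5 := central_of_trace ρ hinj hirr hd4 hM h16 h1 tx
    apply hinv
    rw [← hxy.inv, Subgroup.mem_center_iff.1 h5 y, mul_inv_cancel_right]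
  · have h5 := central_of_trace ρ hinj hirr hd4 hM h16 h1 ty
    apply hinv
    rw [← hxy.inv]
    exact key y h5
  · have h5 := central_of_trace ρ hinj hirr hd4 hM h16 (w := x * y) (by
      intro m hm
      rw [map_mul]
      exact h1 m hm) txy
    apply hinv
    have h6 := key _ h5
    have h7 : x * y * x * (x * y)⁻¹ = x * (y * x * y⁻¹) * x⁻¹ := by group
    rw [h7, hxy.inv, mul_inv_cancel, one_mul] at h6
    exact h6

end Cfsg.Agent.H558.RV
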