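import Cfsg.Agent.H558.RV.AbCentral

/-!
# Quaternion groups moving two dimensions (helper558)

`QQ ρ x y` : `x`, `y` generate a quaternion group, `[V, x ^ 2]` has dimension at most two, `-1` is not an eigenvalue of `x`, `y`.
-/

set_option autoImplicit false

namespace Cfsg.Agent.H558.RV

open Module Cfsg.Agent.H167.OP Cfsg.Agent.H170.HL

variable {F : Type*} [Field F] {V : Type*} [AddCommGroup V] [Module F V] {G : Type*} [Group G]

/-- see the header -/
structure QQ (ρ : Representation F G V) (x y : G) : Prop where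
  hx : Q4 ρ x
  hy : Q4 ρ y
  sq : y * y = x * x
  inv : y * x * y⁻¹ = x⁻¹
  ne : x ≠ 1

/-- the support -/
def E (ρ : Representation F G V) (x : G) : Submodule F V := LinearMap.range (ρ (x * x) - 1)

variable {ρ : Representation F G V} {x y : G}

theorem Q4.mem_E (h : Q4 ρ x) (h2 : (2 : F) ≠ 0) {v : V} : v ∈ E ρ x ↔ ρ (x * x) v = -v := by
  have h4 : ρ (x * x) * ρ (x * x) = 1 := by
    rw [← map_mul, show x * x * (x * x) = x ^ 4 by simp only [pow_succ, pow_zero, one_mul, mul_assoc], h.four, map_one]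
  constructor
  · rintro ⟨w, rfl⟩
    have h5 : ρ (x * x) (ρ (x * x) w) = w := by rw [← End.mul_apply, h4, End.one_apply]
    rw [LinearMap.sub_apply, End.one_apply, map_sub, h5]
    abel
  · intro hv
    refine ⟨-((2 : F)⁻¹ • v), ?_⟩
    rw [LinearMap.sub_apply, End.one_apply, map_neg, map_smul, hv, smul_neg, neg_neg, sub_neg_eq_add, ← add_smul, ← two_mul,
      mul_inv_cancel₀ h2, one_smul]

/-- `x` is trivial where `x ^ 2` is -/
theorem Q4.fix (h : Q4 ρ x) {v : V} (hv : ρ (x * x) v = v) : ρ x v = v := by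
  have h1 : ρ x (ρ x v - v) = -(ρ x v - v) := by
    rw [map_sub, ← End.mul_apply, ← map_mul, hv]; abel
  exact sub_eq_zero.1 (h.neg _ h1)

namespace QQ

theorem yy (h : QQ ρ x y) : E ρ y = E ρ x := by unfold E; rw [h.sq]

theorem sq_ne (h : QQ ρ x y) (hinj : Function.Injective ρ) : x * x ≠ 1 := by
  intro h1
  apply h.ne
  apply hinj
  ext v
  rw [h.hx.fix (v := v) (by rw [h1, map_one, End.one_apply]), map_one, End.one_apply]

theorem yxy (h : QQ ρ x y) : y * x = x⁻¹ * y := by rw [← h.inv]; group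

/-- no common eigenvector in the support -/
theorem no_eig (h : QQ ρ x y) (h2 : (2 : F) ≠ 0) {v : V} (hv : v ∈ E ρ x) (hv0 : v ≠ 0) {a b : F} (ha : ρ x v = a • v)
    (hb : ρ y v = b • v) : False := by
  rw [h.hx.mem_E h2] at hv
  have haa : a * a = -1 := by
    rw [map_mul, End.mul_apply, ha, map_smul, ha, smul_smul] at hv
    have h3 : (a * a + 1) • v = 0 := by rw [add_smul, hv, one_smul, neg_add_cancel]
    rcases smul_eq_zero.1 h3 with h4 | h4
    · exact eq_neg_of_add_eq_zero_left h4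
    · exact absurd h4 hv0
  have hb0 : b ≠ 0 := by
    rintro rfl
    rw [zero_smul] at hb
    apply hv0
    have : ρ y⁻¹ (ρ y v) = v := inv_ap ρ y v
    rw [← this, hb, map_zero]
  -- `x y x = y`
  have h3 : x * (y * x) = y := by rw [h.yxy, mul_inv_cancel_left]
  have h4 : ρ (x * (y * x)) v = b • v := by rw [h3, hb]
  rw [map_mul, map_mul, End.mul_apply, End.mul_apply, ha, map_smul, hb, map_smul, map_smul, ha, smul_smul, smul_smul] at h4
  have h5 : (a * b * a - b) • v = 0 := by rw [sub_smul, h4, sub_self]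
  rcases smul_eq_zero.1 h5 with h6 | h6
  · have h7 : b * (a * a - 1) = 0 := by linear_combination h6
    rcases mul_eq_zero.1 h7 with h8 | h8
    · exact hb0 h8
    · rw [haa] at h8
      apply h2
      linear_combination -h8
  · exact hv0 h6

/-- invariant subspaces of `E` -/
theorem inv_E (h : QQ ρ x y) (h2 : (2 : F) ≠ 0) : (∀ v ∈ E ρ x, ρ x v ∈ E ρ x) ∧ ∀ v ∈ E ρ x, ρ y v ∈ E ρ x := by
  constructor
  · intro v hv
    rw [h.hx.mem_E h2] at hv ⊢
    rw [← End.mul_apply, ← map_mul, show x * x * x = x * (x * x) by rw [mul_assoc], map_mul, End.mul_apply, hv, map_neg]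
  · intro v hv
    rw [← h.yy] at hv ⊢
    rw [h.hy.mem_E h2] at hv ⊢
    rw [← End.mul_apply, ← map_mul, show y * y * y = y * (y * y) by rw [mul_assoc], map_mul, End.mul_apply, hv, map_neg]

theorem finrank_E [FiniteDimensional F V] (h : QQ ρ x y) (hinj : Function.Injective ρ) (h2 : (2 : F) ≠ 0) :
    finrank F (E ρ x) = 2 := by
  have hle : finrank F (E ρ x) ≤ 2 := h.hx.rk
  have h0 : finrank F (E ρ x) ≠ 0 := by
    intro h0
    rw [Submodule.finrank_eq_zero] at h0
    apply h.sq_ne hinj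
    apply hinj
    have h3 : ρ (x * x) - 1 = 0 := LinearMap.range_eq_bot.1 h0
    rw [map_one]
    exact sub_eq_zero.1 h3
  have h1 : finrank F (E ρ x) ≠ 1 := by
    intro h1
    obtain ⟨⟨v, hv⟩, hv0, hs⟩ := finrank_eq_one_iff'.1 h1
    have hv0' : v ≠ 0 := fun hh => hv0 (Subtype.ext hh)
    obtain ⟨a, ha⟩ := hs ⟨ρ x v, (h.inv_E h2).1 v hv⟩
    obtain ⟨b, hb⟩ := hs ⟨ρ y v, (h.inv_E h2).2 v hv⟩
    exact h.no_eig h2 hv hv0' (congrArg Subtype.val ha).symm (congrArg Subtype.val hb).symm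
  omega

/-- the support is irreducible -/
theorem irr_E [FiniteDimensional F V] (h : QQ ρ x y) (hinj : Function.Injective ρ) (h2 : (2 : F) ≠ 0) {M : Submodule F V}
    (hx : ∀ v ∈ M, ρ x v ∈ M) (hy : ∀ v ∈ M, ρ y v ∈ M) : M ⊓ E ρ x = ⊥ ∨ E ρ x ≤ M := by
  by_contra hcon
  push Not at hcon
  obtain ⟨hc1, hc2⟩ := hcon
  have hle : finrank F ↥(M ⊓ E ρ x) ≤ 2 := by
    rw [← h.finrank_E hinj h2]
    exact Submodule.finrank_mono inf_le_right
  have h0 : finrank F ↥(M ⊓ E ρ x) ≠ 0 := fun h0 => hc1 (Submodule.finrank_eq_zero.1 h0)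
  have h22 : finrank F ↥(M ⊓ E ρ x) ≠ 2 := by
    intro h22
    apply hc2
    rw [← h.finrank_E hinj h2] at h22
    rw [← inf_eq_right]
    exact Submodule.eq_of_le_of_finrank_eq inf_le_right h22
  have h1 : finrank F ↥(M ⊓ E ρ x) = 1 := by omega
  obtain ⟨⟨v, hv⟩, hv0, hs⟩ := finrank_eq_one_iff'.1 h1
  have hv0' : v ≠ 0 := fun hh => hv0 (Subtype.ext hh)
  obtain ⟨a, ha⟩ := hs ⟨ρ x v, hx v hv.1, (h.inv_E h2).1 v hv.2⟩
  obtain ⟨b, hb⟩ := hs ⟨ρ y v, hy v hv.1, (h.inv_E h2).2 v hv.2⟩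
  exact h.no_eig h2 hv.2 hv0' (congrArg Subtype.val ha).symm (congrArg Subtype.val hb).symm

/-- `x y` -/
theorem xy_sq (h : QQ ρ x y) : (x * y) * (x * y) = x * x := by
  calc (x * y) * (x * y) = (x * (y * x)) * y := by simp only [mul_assoc]
    _ = y * y := by rw [h.yxy, mul_inv_cancel_left]
    _ = x * x := h.sq

end QQ

/-- the trace of an element conjugate to its inverse -/
theorem trace_eq [FiniteDimensional F V] (h2 : (2 : F) ≠ 0) {w u z : G} (hw : w * w = z) (hz : z * z = 1)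
    (huz : u * z = z * u) (huw : u * w * u⁻¹ = w⁻¹) (hfix : ∀ v, ρ z v = v → ρ w v = v) :
    LinearMap.trace F V (ρ w) = (finrank F (LinearMap.ker (ρ z - 1)) : F) := by
  have hzz : ρ z * ρ z = 1 := by rw [← map_mul, hz, map_one]
  let e : End F V := (2 : F)⁻¹ • (1 + ρ z)
  have hez : ∀ v, ρ z (e v) = e v := by
    intro v
    show ρ z ((2 : F)⁻¹ • (v + ρ z v)) = (2 : F)⁻¹ • (v + ρ z v)
    have h5 : ρ z (ρ z v) = v := by rw [← End.mul_apply, hzz, End.one_apply]
    rw [map_smul, map_add, h5, add_comm]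
  have hproj : LinearMap.IsProj (LinearMap.ker (ρ z - 1)) e := by
    constructor
    · intro v
      rw [LinearMap.mem_ker, LinearMap.sub_apply, End.one_apply, hez, sub_self]
    · intro v hv
      rw [LinearMap.mem_ker, LinearMap.sub_apply, End.one_apply, sub_eq_zero] at hv
      show (2 : F)⁻¹ • (v + ρ z v) = v
      rw [hv, ← two_smul F v, smul_smul, inv_mul_cancel₀ h2, one_smul]
  have hwe : ρ w * e = e := by
    ext v
    rw [End.mul_apply]
    exact hfix _ (hez v)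
  have hwz : ρ w⁻¹ = ρ w * ρ z := by
    rw [← map_mul]
    congr 1
    rw [inv_eq_iff_mul_eq_one, ← mul_assoc, hw, hz]
  have h2e : ρ w + ρ w * ρ z = e + e := by
    have h5 : (2 : F) • (ρ w * e) = ρ w + ρ w * ρ z := by
      show (2 : F) • (ρ w * ((2 : F)⁻¹ • (1 + ρ z))) = _
      rw [mul_smul_comm, smul_smul, mul_inv_cancel₀ h2, one_smul, mul_add, mul_one]
    rw [← h5, hwe, two_smul]
  have hue : ρ u * e * ρ u⁻¹ = e := by
    have h5 : ρ u * ρ z = ρ z * ρ u := by rw [← map_mul, huz, map_mul]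
    have h6 : ρ u * ρ u⁻¹ = 1 := by rw [← map_mul, mul_inv_cancel, map_one]
    show ρ u * ((2 : F)⁻¹ • (1 + ρ z)) * ρ u⁻¹ = (2 : F)⁻¹ • (1 + ρ z)
    rw [mul_smul_comm, mul_add, mul_one, h5, smul_mul_assoc, add_mul, mul_assoc, h6, mul_one]
  have hA : ρ u * (ρ w - e) * ρ u⁻¹ = -(ρ w - e) := by
    rw [mul_sub, sub_mul, hue, ← map_mul, ← map_mul, huw, hwz, neg_sub, sub_eq_sub_iff_add_eq_add, ← h2e, add_comm]
  have htr : LinearMap.trace F V (ρ w - e) = 0 := by
    have h5 := congrArg (LinearMap.trace F V) hA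
    rw [map_neg, LinearMap.trace_mul_comm, ← mul_assoc, ← map_mul, inv_mul_cancel, map_one, one_mul] at h5
    have h6 : (2 : F) * LinearMap.trace F V (ρ w - e) = 0 := by
      rw [two_mul]; nth_rewrite 2 [h5]; exact add_neg_cancel _
    exact (mul_eq_zero.1 h6).resolve_left h2
  rw [map_sub, sub_eq_zero] at htr
  rw [htr, hproj.trace]

/-- the traces of `x`, `y`, `x y` -/
theorem QQ.trace_ne [FiniteDimensional F V] (h : QQ ρ x y) (hinj : Function.Injective ρ) (h2 : (2 : F) ≠ 0)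
    (hd : finrank F V = 4) : LinearMap.trace F V (ρ x) ≠ 0 ∧ LinearMap.trace F V (ρ y) ≠ 0 ∧
      LinearMap.trace F V (ρ (x * y)) ≠ 0 := by
  have hzz : x * x * (x * x) = 1 := by
    rw [← h.hx.four]; simp only [pow_succ, pow_zero, one_mul, mul_assoc]
  have hfd : finrank F (LinearMap.ker (ρ (x * x) - 1)) = 2 := by
    have h3 := LinearMap.finrank_range_add_finrank_ker (ρ (x * x) - 1)
    have h4 : finrank F (LinearMap.range (ρ (x * x) - 1)) = 2 := h.finrank_E hinj h2
    omega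
  have hc : (finrank F (LinearMap.ker (ρ (x * x) - 1)) : F) ≠ 0 := by rw [hfd]; exact_mod_cast h2
  have hyz : y * (x * x) = x * x * y := by rw [← h.sq, mul_assoc]
  have hfx : ∀ v, ρ (x * x) v = v → ρ x v = v := fun v hv => h.hx.fix hv
  have hfy : ∀ v, ρ (x * x) v = v → ρ y v = v := fun v hv => h.hy.fix (by rw [h.sq]; exact hv)
  have hyx' : y * x⁻¹ = x * y := by
    have h5 : y * x⁻¹ * y⁻¹ = x := by
      have h6 : y * x⁻¹ * y⁻¹ = (y * x * y⁻¹)⁻¹ := by group
      rw [h6, h.inv, inv_inv]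
    calc y * x⁻¹ = y * x⁻¹ * y⁻¹ * y := by group
      _ = x * y := by rw [h5]
  have hxyx : x * y * x⁻¹ = y⁻¹ := by
    have h4 : y * y * (y * y) = 1 := by rw [h.sq]; exact hzz
    rw [mul_assoc, hyx', eq_inv_iff_mul_eq_one, ← h4, h.sq]
    nth_rewrite 2 [← h.sq]
    simp only [mul_assoc]
  refine ⟨?_, ?_, ?_⟩
  · rw [trace_eq h2 rfl hzz hyz h.inv hfx]
    exact hc
  · rw [trace_eq h2 h.sq hzz (u := x) (by rw [mul_assoc]) hxyx hfy]
    exact hc
  · rw [trace_eq h2 h.xy_sq hzz (u := x) ?_ ?_ ?_]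
    · exact hc
    · rw [mul_assoc]
    · have h5 : x * (x * y) * x⁻¹ = x * (x * y * x⁻¹) := by simp only [mul_assoc]
      rw [h5, hxyx, mul_inv_rev, ← h.inv]
      have h6 : y⁻¹ * (y * x * y⁻¹) = x * y⁻¹ := by group
      rw [h6]
    · intro v hv
      rw [map_mul, End.mul_apply, hfy v hv, hfx v hv]

end Cfsg.Agent.H558.RV
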