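import Cfsg.Agent.H558.RV.HasFrm
import Cfsg.Agent.H964.RV3.Lift
import Cfsg.Prelude.Def_LieTypeChar

/-!
# TEAM RV, box R3 for `PSL`, `PSp`, `PSU` (helper558)

`2 ∈ π`, `3 ∉ π`, `p ∉ π`, `S ∈ E_π` of type `PSL_n(q)`, `PSp_2m(q)`, `PSU_n(q)` in characteristic `p`: the Hall
`π`-subgroups have an abelian normal 2-complement.
-/

set_option autoImplicit false

namespace Cfsg.Agent.H558.RV

open Cfsg Cfsg.Agent.H571.RV

universe u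

variable {π : Set ℕ} {S : Type u} [Group S] [Finite S]

theorem fhall_of_hasFrm (h2π : 2 ∈ π) (h3π : 3 ∉ π) (hE : IsEPiGroup π S) {p : ℕ} (hp : p.Prime) (hpπ : p ∉ π)
    (h : HasFrm S p) : FHall π S := by
  obtain ⟨K, iK, iK', ι, iι, iι', G, iG, iGf, ρ, f, hch, hinj, hfr, hf, hker⟩ := h
  exact Cfsg.Agent.H964.RV3.fhall_of_lift hE f hf hker fun H hH => hfr.closed hinj hp h2π h3π hpπ hH.1 hH.2

theorem fhall_psl (h2π : 2 ∈ π) (h3π : 3 ∉ π) (hE : IsEPiGroup π S) (p : ℕ) (hp : p.Prime) (hpπ : p ∉ π)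
    (h : IsPSLChar p S) : FHall π S := by
  obtain ⟨F, iF, iFt, hc, n, hn, -, ⟨e⟩⟩ := h
  exact fhall_of_hasFrm h2π h3π hE hp hpπ (hasFrm_PSL hp (fun h => hpπ (h ▸ h2π)) e)

theorem fhall_psp (h2π : 2 ∈ π) (h3π : 3 ∉ π) (hE : IsEPiGroup π S) (p : ℕ) (hp : p.Prime) (hpπ : p ∉ π)
    (h : IsPSpChar p S) : FHall π S := by
  obtain ⟨F, iF, iFt, hc, m, hm, -, ⟨e⟩⟩ := h
  exact fhall_of_hasFrm h2π h3π hE hp hpπ (hasFrm_PSp hp (fun h => hpπ (h ▸ h2π)) e)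

theorem fhall_psu (h2π : 2 ∈ π) (h3π : 3 ∉ π) (hE : IsEPiGroup π S) (p : ℕ) (hp : p.Prime) (hpπ : p ∉ π)
    (h : IsPSUChar p S) : FHall π S := by
  obtain ⟨F, iF, iFt, hc, n, q, hF, hn, -, ⟨e⟩⟩ := h
  exact fhall_of_hasFrm h2π h3π hE hp hpπ (hasFrm_PSU hp (fun h => hpπ (h ▸ h2π)) hF e)

end Cfsg.Agent.H558.RV
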