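import Cfsg.Agent.H558.RV.Rows
import Cfsg.Agent.H959.RV.Two

/-!
# `FTwo` for `PSL`, `PSp`, `PSU` (helper558)

As in `Rows`, with the prime `2` in the statement.
-/

set_option autoImplicit false

namespace Cfsg.Agent.H558.RV

open Subgroup Cfsg Cfsg.Agent.H571.RV Cfsg.Agent.H553.ExtRed Cfsg.Agent.H959.RV Cfsg.Agent.H988.CPi

universe u

/-- the elements of odd order form an abelian normal 2-complement -/
theorem ftwo_of_oddClosed {π : Set ℕ} {S : Type*} [Group S] [Finite S] {H : Subgroup S} (hH : IsPiHall π H)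
    (hcl : OddClosed H) (hab : ∀ x ∈ H, ∀ y ∈ H, Odd (orderOf x) → Odd (orderOf y) → x * y = y * x) :
    FTwo π S := by
  let A : Subgroup S :=
    { carrier := {x | x ∈ H ∧ Odd (orderOf x)}
      one_mem' := ⟨H.one_mem, by rw [orderOf_one]; exact odd_one⟩
      mul_mem' := by
        rintro x y ⟨hx, hx1⟩ ⟨hy, hy1⟩
        refine ⟨H.mul_mem hx hy, ?_⟩
        have h1 := hcl ⟨x, hx⟩ ⟨y, hy⟩ (by rwa [Subgroup.orderOf_mk]) (by rwa [Subgroup.orderOf_mk])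
        rw [← Subgroup.orderOf_coe] at h1
        exact h1
      inv_mem' := by
        rintro x ⟨hx, hx1⟩
        exact ⟨H.inv_mem hx, by rwa [orderOf_inv]⟩ }
  have hAH : A ≤ H := fun x hx => hx.1
  have hcj : ∀ g x : S, orderOf (g * x * g⁻¹) = orderOf x := fun g x =>
    orderOf_injective (MulAut.conj g).toMonoidHom (MulAut.conj g).injective x
  refine ⟨H, A, hH, hAH, ?_, fun a ha b hb => hab a ha.1 b hb.1 ha.2 hb.2, ?_, ?_⟩
  · intro g hg
    rw [Subgroup.mem_normalizer_iff]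
    intro x
    constructor
    · rintro ⟨hx, hx1⟩
      exact ⟨H.mul_mem (H.mul_mem hg hx) (H.inv_mem hg), by rw [hcj]; exact hx1⟩
    · rintro ⟨hx, hx1⟩
      refine ⟨?_, by rwa [hcj] at hx1⟩
      have := H.mul_mem (H.mul_mem (H.inv_mem hg) hx) hg
      simpa [mul_assoc] using this
  · intro hd
    have : Fact (Nat.Prime 2) := ⟨Nat.prime_two⟩
    obtain ⟨x, hx⟩ := exists_prime_orderOf_dvd_card' (G := A) 2 hd
    have h1 := x.2.2
    rw [Subgroup.orderOf_coe, hx] at h1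
    exact absurd h1 (by decide)
  · intro p hp hd
    have hn : (A.subgroupOf H).Normal := by
      refine ⟨fun x hx g => ?_⟩
      rw [Subgroup.mem_subgroupOf] at hx ⊢
      exact ⟨(g * x * g⁻¹ : H).2, by
        show Odd (orderOf ((g : S) * x * (g : S)⁻¹))
        rw [hcj]; exact hx.2⟩
    have hq : p ∣ Nat.card (H ⧸ A.subgroupOf H) := hd
    have : Fact p.Prime := ⟨hp⟩
    obtain ⟨y, hy⟩ := exists_prime_orderOf_dvd_card' (G := H ⧸ A.subgroupOf H) p hq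
    obtain ⟨x, rfl⟩ := QuotientGroup.mk_surjective y
    obtain ⟨k, m, hm, hkm⟩ := Nat.exists_eq_two_pow_mul_odd (orderOf_pos x).ne'
    have h2 : x ^ 2 ^ k ∈ A.subgroupOf H := by
      rw [Subgroup.mem_subgroupOf]
      refine ⟨(x ^ 2 ^ k).2, ?_⟩
      rw [Subgroup.orderOf_coe]
      exact odd_orderOf_of_pow hm (by rw [← pow_mul, ← hkm, pow_orderOf_eq_one])
    have h3 : (x : H ⧸ A.subgroupOf H) ^ 2 ^ k = 1 := by
      rw [← QuotientGroup.mk_pow]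
      exact (QuotientGroup.eq_one_iff _).mpr h2
    have h4 := orderOf_dvd_of_pow_eq_one h3
    rw [hy] at h4
    exact (Nat.prime_dvd_prime_iff_eq hp Nat.prime_two).1 (hp.dvd_of_dvd_pow h4)

/-- `FTwo` from a central extension -/
theorem ftwo_of_lift {G S : Type*} [Group G] [Finite G] [Group S] [Finite S] {π : Set ℕ}
    (hE : IsEPiGroup π S) (f : G →* S) (hf : Function.Surjective f) (hker : f.ker ≤ Subgroup.center G)
    (hmain : ∀ H : Subgroup G, IsPiHall π H → OddClosed H ∧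
      ∀ s ∈ H, ∀ t ∈ H, Odd (orderOf s) → Odd (orderOf t) → s * t = t * s) : FTwo π S := by
  obtain ⟨H, hH⟩ := Cfsg.Agent.H964.RV3.exists_hall hE f hf hker
  obtain ⟨hcl, hab⟩ := hmain H hH
  have hM : IsPiHall π (H.map f) := by
    refine ⟨fun p hp hd => hH.1 p hp (hd.trans (card_map_dvd H f)), fun p hp hpπ hd => ?_⟩
    exact hH.2 p hp hpπ (hd.trans (index_map_dvd _ hf))
  refine ftwo_of_oddClosed hM ?_ ?_
  · intro x y hx hy
    rw [← Subgroup.orderOf_coe] at hx hy ⊢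
    obtain ⟨x', hx'H, hx', hx'o⟩ := Cfsg.Agent.H964.RV3.exists_odd_lift f x.2 hx
    obtain ⟨y', hy'H, hy', hy'o⟩ := Cfsg.Agent.H964.RV3.exists_odd_lift f y.2 hy
    rw [Subgroup.coe_mul, ← hx', ← hy', ← map_mul]
    refine Odd.of_dvd_nat ?_ (orderOf_map_dvd f _)
    have h1 := hcl ⟨x', hx'H⟩ ⟨y', hy'H⟩ (by rwa [Subgroup.orderOf_mk]) (by rwa [Subgroup.orderOf_mk])
    rw [← Subgroup.orderOf_coe] at h1
    exact h1
  · intro x hx y hy hxo hyo
    obtain ⟨x', hx'H, rfl, hx'o⟩ := Cfsg.Agent.H964.RV3.exists_odd_lift f hx hxo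
    obtain ⟨y', hy'H, rfl, hy'o⟩ := Cfsg.Agent.H964.RV3.exists_odd_lift f hy hyo
    rw [← map_mul, ← map_mul, hab x' hx'H y' hy'H hx'o hy'o]

variable {π : Set ℕ} {S : Type u} [Group S] [Finite S]

theorem ftwo_of_hasFrm (h2π : 2 ∈ π) (h3π : 3 ∉ π) (hE : IsEPiGroup π S) {p : ℕ} (hp : p.Prime) (hpπ : p ∉ π)
    (h : HasFrm S p) : FTwo π S := by
  obtain ⟨K, iK, iK', ι, iι, iι', G, iG, iGf, ρ, f, hch, hinj, hfr, hf, hker⟩ := h
  exact ftwo_of_lift hE f hf hker fun H hH => hfr.closed hinj hp h2π h3π hpπ hH.1 hH.2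

theorem ftwo_psl (h2π : 2 ∈ π) (h3π : 3 ∉ π) (hE : IsEPiGroup π S) (p : ℕ) (hp : p.Prime) (hpπ : p ∉ π)
    (h : IsPSLChar p S) : FTwo π S := by
  obtain ⟨F, iF, iFt, hc, n, hn, -, ⟨e⟩⟩ := h
  exact ftwo_of_hasFrm h2π h3π hE hp hpπ (hasFrm_PSL hp (fun h => hpπ (h ▸ h2π)) e)

theorem ftwo_psp (h2π : 2 ∈ π) (h3π : 3 ∉ π) (hE : IsEPiGroup π S) (p : ℕ) (hp : p.Prime) (hpπ : p ∉ π)
    (h : IsPSpChar p S) : FTwo π S := by
  obtain ⟨F, iF, iFt, hc, m, hm, -, ⟨e⟩⟩ := h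
  exact ftwo_of_hasFrm h2π h3π hE hp hpπ (hasFrm_PSp hp (fun h => hpπ (h ▸ h2π)) e)

theorem ftwo_psu (h2π : 2 ∈ π) (h3π : 3 ∉ π) (hE : IsEPiGroup π S) (p : ℕ) (hp : p.Prime) (hpπ : p ∉ π)
    (h : IsPSUChar p S) : FTwo π S := by
  obtain ⟨F, iF, iFt, hc, n, q, hF, hn, -, ⟨e⟩⟩ := h
  exact ftwo_of_hasFrm h2π h3π hE hp hpπ (hasFrm_PSU hp (fun h => hpπ (h ▸ h2π)) hF e)

end Cfsg.Agent.H558.RV
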