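import Cfsg.Agent.H574.Deg4.Irr

/-!
# Groups of order prime to three acting irreducibly on a symplectic space with sixteen elements (helper558)

`FM M β` : `M` is a minimal normal subgroup of `Q`, elementary abelian of order 16, `β` a nondegenerate alternating
invariant form on `M`.  `FM.quat` : if the order of `Q` is prime to three and `x`, `y` satisfy the relations of the
quaternion group then one of `x`, `y`, `x y` centralises `M`.
-/

set_option autoImplicit false

namespace Cfsg.Agent.H558.RV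

open MulAction

/-- see the header -/
structure FM {Q : Type*} [Group Q] (M : Subgroup Q) (β : Q → Q → ZMod 2) : Prop where
  nrm : M.Normal
  min : ∀ K : Subgroup Q, K.Normal → K ≤ M → K = ⊥ ∨ K = M
  sq : ∀ x ∈ M, x * x = 1
  card : Nat.card M = 16
  mul : ∀ a ∈ M, ∀ b ∈ M, ∀ c ∈ M, β (a * b) c = β a c + β b c
  symm : ∀ a ∈ M, ∀ b ∈ M, β a b = β b a
  alt : ∀ a ∈ M, β a a = 0
  inv : ∀ g, ∀ a ∈ M, ∀ b ∈ M, β (g * a * g⁻¹) (g * b * g⁻¹) = β a b
  nd : ∀ a ∈ M, (∀ b ∈ M, β a b = 0) → a = 1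

/-- fixed points of automorphisms of order a power of a prime at least five of groups of order 16 -/
theorem fixed_sixteen {M : Type*} [Group M] [Finite M] {σ : MulAut M} (hM : Nat.card M = 16) {r n : ℕ} (hr : r.Prime)
    (h5 : 5 ≤ r) (hσ : σ ^ r ^ n = 1) (hne : σ ≠ 1) :
    r = 5 ∨ (r = 7 ∧ Nat.card (fixedPoints (Subgroup.zpowers σ) M) = 2) := by
  classical
  have htf : Fact r.Prime := ⟨hr⟩
  have hP : IsPGroup r (Subgroup.zpowers σ) := by
    rintro ⟨_, i, rfl⟩
    refine ⟨n, Subtype.ext ?_⟩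
    show (σ ^ i) ^ r ^ n = 1
    rw [← zpow_natCast, ← zpow_mul, mul_comm, zpow_mul, zpow_natCast, hσ, one_zpow]
  have := Fintype.ofFinite M
  have hmod := hP.card_modEq_card_fixedPoints M
  obtain ⟨f, hf⟩ : ∃ f, f = Nat.card (fixedPoints (Subgroup.zpowers σ) M) := ⟨_, rfl⟩
  have hdvd := Cfsg.Agent.H574.Deg4.fixed_dvd σ
  rw [hM, ← hf] at hdvd
  rw [hM, ← hf] at hmod
  rw [← hf]
  have hf16 : f ≤ 16 := Nat.le_of_dvd (by norm_num) hdvd
  have h2 : r ∣ 16 - f := (Nat.modEq_iff_dvd' hf16).1 hmod.symm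
  have hf44 : f ≠ 16 := by
    intro h
    apply hne
    have h1 : fixedPoints (Subgroup.zpowers σ) M = Set.univ := by
      apply Set.eq_of_subset_of_ncard_le (Set.subset_univ _)
      rw [Set.ncard_univ, hM, ← Nat.card_coe_set_eq, ← hf, h]
    ext x
    have h3 : x ∈ fixedPoints (Subgroup.zpowers σ) M := by rw [h1]; trivial
    exact h3 ⟨σ, Subgroup.mem_zpowers σ⟩
  have hfm : f ∈ Nat.divisors 16 := Nat.mem_divisors.2 ⟨hdvd, by norm_num⟩
  have hdv : Nat.divisors 16 = {1, 2, 4, 8, 16} := by decide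
  rw [hdv] at hfm
  simp only [Finset.mem_insert, Finset.mem_singleton] at hfm
  rcases hfm with h | h | h | h | h
  · -- 15
    have h3 : r ∣ 3 * 5 := by rw [h] at h2; exact h2
    rcases (Nat.Prime.dvd_mul hr).1 h3 with h4 | h4
    · have := Nat.le_of_dvd (by norm_num) h4; omega
    · exact Or.inl ((Nat.prime_dvd_prime_iff_eq hr Nat.prime_five).1 h4)
  · have h3 : r ∣ 2 * 7 := by rw [h] at h2; exact h2
    rcases (Nat.Prime.dvd_mul hr).1 h3 with h4 | h4
    · have := Nat.le_of_dvd (by norm_num) h4; omega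
    · exact Or.inr ⟨(Nat.prime_dvd_prime_iff_eq hr (by norm_num)).1 h4, h⟩
  · exfalso
    have h3 : r ∣ 2 ^ 2 * 3 := by rw [h] at h2; exact h2
    rcases (Nat.Prime.dvd_mul hr).1 h3 with h4 | h4
    · have := Nat.le_of_dvd (by norm_num) (hr.dvd_of_dvd_pow h4); omega
    · have := Nat.le_of_dvd (by norm_num) h4; omega
  · exfalso
    have h3 : r ∣ 2 ^ 3 := by rw [h] at h2; exact h2
    have := Nat.le_of_dvd (by norm_num) (hr.dvd_of_dvd_pow h3); omega
  · exact absurd h hf44

namespace FM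

variable {Q : Type*} [Group Q] {M : Subgroup Q} {β : Q → Q → ZMod 2}

theorem comm (h : FM M β) {a b : Q} (ha : a ∈ M) (hb : b ∈ M) : a * b = b * a := by
  have h1 := h.sq _ (mul_mem ha hb)
  have h2 : a⁻¹ = a := inv_eq_of_mul_eq_one_right (h.sq a ha)
  have h3 : b⁻¹ = b := inv_eq_of_mul_eq_one_right (h.sq b hb)
  calc a * b = (a * b)⁻¹ := (inv_eq_of_mul_eq_one_right h1).symm
    _ = b * a := by rw [mul_inv_rev, h2, h3]

theorem not_fixed (h : FM M β) {x : Q} (hx : x ∈ M) (hx1 : x ≠ 1) : ∃ g, g * x * g⁻¹ ≠ x := by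
  by_contra hcon
  push Not at hcon
  have h2 : (Subgroup.zpowers x).Normal := by
    constructor
    intro y hy g
    obtain ⟨i, rfl⟩ := hy
    refine ⟨i, ?_⟩
    show x ^ i = g * x ^ i * g⁻¹
    rw [← conj_zpow, hcon]
  rcases h.min _ h2 (by rw [Subgroup.zpowers_le]; exact hx) with h4 | h4
  · rw [Subgroup.zpowers_eq_bot] at h4
    exact hx1 h4
  · have h6 : Nat.card M = 2 := by
      rw [← h4, Nat.card_zpowers]
      exact orderOf_eq_prime (by rw [pow_two]; exact h.sq x hx) hx1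
    rw [h.card] at h6
    omega

/-- the product of the first conjugates -/
def nm (g m : Q) : ℕ → Q
  | 0 => 1
  | n + 1 => nm g m n * (g ^ n * m * (g ^ n)⁻¹)

theorem nm_mem (h : FM M β) {g m : Q} (hm : m ∈ M) (n : ℕ) : nm g m n ∈ M := by
  induction n with
  | zero => exact one_mem _
  | succ n ih => exact mul_mem ih (h.nrm.conj_mem m hm _)

theorem nm_conj (h : FM M β) {g m : Q} (hm : m ∈ M) (n : ℕ) : g * nm g m n * g⁻¹ * m = nm g m (n + 1) := by
  induction n with
  | zero => simp [nm]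
  | succ n ih =>
    have h1 : g * nm g m (n + 1) * g⁻¹ = g * nm g m n * g⁻¹ * (g ^ (n + 1) * m * (g ^ (n + 1))⁻¹) := by
      show g * (nm g m n * (g ^ n * m * (g ^ n)⁻¹)) * g⁻¹ = _
      rw [pow_succ']
      group
    rw [h1, mul_assoc, h.comm (h.nrm.conj_mem m hm _) hm, ← mul_assoc, ih]
    rfl

theorem beta_one (h : FM M β) {u : Q} (hu : u ∈ M) : β 1 u = 0 := by
  have h1 := h.mul 1 (one_mem _) 1 (one_mem _) u hu
  rw [one_mul] at h1
  exact (left_eq_add.mp h1)

theorem beta_nm (h : FM M β) {g m u : Q} (hm : m ∈ M) (hu : u ∈ M) (hgu : g * u * g⁻¹ = u) (n : ℕ) :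
    β (nm g m n) u = n * β m u := by
  induction n with
  | zero => rw [Nat.cast_zero, zero_mul]; exact h.beta_one hu
  | succ n ih =>
    have h1 : β (g ^ n * m * (g ^ n)⁻¹) u = β m u := by
      have h2 : g ^ n * u * (g ^ n)⁻¹ = u := by
        have h3 : Commute g u := by
          show g * u = u * g
          calc g * u = g * u * g⁻¹ * g := by group
            _ = u * g := by rw [hgu]
        rw [(h3.pow_left n).eq, mul_inv_cancel_right]
      conv_lhs => rw [← h2]
      exact h.inv _ m hm u hu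
    show β (nm g m n * (g ^ n * m * (g ^ n)⁻¹)) u = _
    rw [h.mul _ (h.nm_mem hm n) _ (h.nrm.conj_mem m hm _) u hu, ih, h1]
    push_cast
    ring

/-- an element of odd order does not have exactly two fixed points -/
theorem eq_one_of_two (h : FM M β) {g u : Q} (hg : Odd (orderOf g)) (hu : u ∈ M) (hgu : g * u * g⁻¹ = u)
    (hf : ∀ m ∈ M, g * m * g⁻¹ = m → m = 1 ∨ m = u) : u = 1 := by
  refine h.nd u hu fun m hm => ?_
  have h1 := h.nm_conj hm (g := g) (orderOf g)
  have h2 : nm g m (orderOf g + 1) = nm g m (orderOf g) * m := by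
    show nm g m (orderOf g) * (g ^ orderOf g * m * (g ^ orderOf g)⁻¹) = _
    rw [pow_orderOf_eq_one, one_mul, inv_one, mul_one]
  rw [h2] at h1
  have h3 := mul_right_cancel h1
  have h4 := h.beta_nm hm hu hgu (orderOf g)
  obtain ⟨k, hk⟩ := hg
  have h5 : ((orderOf g : ℕ) : ZMod 2) = 1 := by
    rw [hk]
    push_cast
    rw [show (2 : ZMod 2) = 0 from rfl, zero_mul, zero_add]
  rw [h5, one_mul] at h4
  rw [h.symm u hu m hm, ← h4]
  rcases hf _ (h.nm_mem hm _) h3 with h6 | h6
  · rw [h6]; exact h.beta_one hu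
  · rw [h6]; exact h.alt u hu

variable [Finite Q]

/-- elements of order a power of a prime `r ≥ 7` centralise `M` -/
theorem cen_of_seven (h : FM M β) {r n : ℕ} (hr : r.Prime) (h7 : 7 ≤ r) {g : Q} (hg : g ^ r ^ n = 1) :
    ∀ m ∈ M, g * m * g⁻¹ = m := by
  have hn := h.nrm
  set σ : MulAut M := MulAut.conjNormal g with hσ
  have hσa : ∀ m : M, ((σ m : M) : Q) = g * m * g⁻¹ := fun m => MulAut.conjNormal_apply g m
  by_contra hcon
  push Not at hcon
  obtain ⟨m₀, hm₀, hm₁⟩ := hcon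
  have hne : σ ≠ 1 := by
    intro h1
    apply hm₁
    rw [← hσa ⟨m₀, hm₀⟩, h1]
    rfl
  have hσp : σ ^ r ^ n = 1 := by rw [hσ, ← map_pow, hg, map_one]
  rcases fixed_sixteen h.card hr (by omega) hσp hne with h1 | ⟨h1, h2⟩
  · omega
  · have hodd : Odd (orderOf g) := by
      have h3 : orderOf g ∣ r ^ n := orderOf_dvd_of_pow_eq_one hg
      refine Odd.of_dvd_nat ?_ h3
      exact Odd.pow (by rw [h1]; decide)
    have hfix : ∀ m : M, m ∈ fixedPoints (Subgroup.zpowers σ) M ↔ g * m * g⁻¹ = m := by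
      intro m
      constructor
      · intro hm
        have h3 : σ m = m := hm ⟨σ, Subgroup.mem_zpowers σ⟩
        rw [← hσa, h3]
      · rintro hm ⟨_, i, rfl⟩
        have h3 : σ m = m := Subtype.ext (by rw [hσa]; exact hm)
        have h4 : m ∈ MulAction.fixedBy M σ := h3
        show (σ ^ i) m = m
        exact MulAction.fixedBy_subset_fixedBy_zpow M σ i h4
    obtain ⟨u, hu, hu1⟩ : ∃ u ∈ fixedPoints (Subgroup.zpowers σ) M, u ≠ 1 := by
      by_contra hcon
      push Not at hcon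
      have h3 : fixedPoints (Subgroup.zpowers σ) M ⊆ {1} := fun a ha => hcon a ha
      have h4 := Set.ncard_le_ncard h3
      rw [Set.ncard_singleton, ← Nat.card_coe_set_eq, h2] at h4
      omega
    apply hu1
    apply Subtype.ext
    refine h.eq_one_of_two hodd u.2 ((hfix u).1 hu) fun m hm hgm => ?_
    by_contra hc
    push Not at hc
    have h3 : ({1, u, ⟨m, hm⟩} : Set M) ⊆ fixedPoints (Subgroup.zpowers σ) M := by
      rintro a (rfl | rfl | ha)
      · rw [hfix]; simp
      · exact hu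
      · rw [Set.mem_singleton_iff] at ha
        rw [ha, hfix]; exact hgm
    have h4 := Set.ncard_le_ncard h3
    have h5 : ({1, u, ⟨m, hm⟩} : Set M).ncard = 3 := by
      rw [Set.ncard_eq_three]
      refine ⟨1, u, ⟨m, hm⟩, Ne.symm hu1, ?_, ?_, rfl⟩
      · intro h6; exact hc.1 (congrArg Subtype.val h6).symm
      · intro h6; exact hc.2 (congrArg Subtype.val h6).symm
    rw [h5, ← Nat.card_coe_set_eq, h2] at h4
    omega

end FM

end Cfsg.Agent.H558.RV
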