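import Cfsg.Agent.H574.Deg4.Irr

/-!
# Minimal normal subgroups modulo the centre of linear groups of degree at most four (helper558; the proof is part of
helper574's `irr_comm`)

`exists_ms` : `G` irreducible of degree at most four, of order prime to three and to the characteristic, all abelian normal
subgroups are central, `G` not abelian: `G / Z(G)` has an elementary abelian minimal normal subgroup of order 4 or 16.
-/

set_option autoImplicit false

namespace Cfsg.Agent.H558.RV

open Module Cfsg.Agent.H189.Wt Cfsg.Agent.H189.FTRep Cfsg.Agent.H574.Deg4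
open Subgroup (center)
open scoped commutatorElement

universe u v w

/-- a minimal normal elementary abelian 2-subgroup of the central quotient, of order 4 or 16 -/
structure MS {G : Type w} [Group G] (M : Subgroup (G ⧸ center G)) : Prop where
  nrm : M.Normal
  ne : M ≠ ⊥
  min : ∀ K : Subgroup (G ⧸ center G), K.Normal → K ≤ M → K = ⊥ ∨ K = M
  sq : ∀ x ∈ M, x * x = 1
  cl : ∃ ε, Cl (M.comap (QuotientGroup.mk' (center G))) ε
  cm : ∀ x ∈ M.comap (QuotientGroup.mk' (center G)), ∀ y ∈ M.comap (QuotientGroup.mk' (center G)), ⁅x, y⁆ ∈ center G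
  card : Nat.card M = 4 ∨ Nat.card M = 16

theorem MS.ab {G : Type w} [Group G] {M : Subgroup (G ⧸ center G)} (h : MS M) : ∀ x ∈ M, ∀ y ∈ M, x * y = y * x := by
  intro a ha b hb
  have h1 := h.sq _ (mul_mem ha hb)
  have h2 : a⁻¹ = a := inv_eq_of_mul_eq_one_right (h.sq a ha)
  have h3 : b⁻¹ = b := inv_eq_of_mul_eq_one_right (h.sq b hb)
  calc a * b = (a * b)⁻¹ := (inv_eq_of_mul_eq_one_right h1).symm
    _ = b * a := by rw [mul_inv_rev, h2, h3]

variable {k : Type u} {V : Type v} {G : Type w} [Field k] [AddCommGroup V] [Module k V] [Group G]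

/-- **the structure of a minimal normal subgroup modulo the centre** -/
theorem exists_ms [IsAlgClosed k] [FiniteDimensional k V] [Finite G] (ρ : G →* End k V)
    (hinj : Function.Injective ρ) (hirr : Irr ρ) (hd : finrank k V ≤ 4) (h3 : ¬ 3 ∣ Nat.card G)
    (hk : (Nat.card G : k) ≠ 0)
    (habN : ∀ A : Subgroup G, A.Normal → (∀ a ∈ A, ∀ b ∈ A, a * b = b * a) → A ≤ center G)
    (hcon0 : ¬ ∀ a b : G, a * b = b * a) : ∃ M : Subgroup (G ⧸ center G), MS M := by
  classical
  have hnt : Nontrivial V := hirr.1
  have hsc : ∀ z ∈ center G, ∃ c : k, ∀ v, ρ z v = c • v := fun z hz => scalar_of_central ρ hirr hz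
  -- a minimal normal subgroup of the quotient
  set mk : G →* G ⧸ center G := QuotientGroup.mk' (center G) with hmk
  have hsurj : Function.Surjective mk := QuotientGroup.mk'_surjective _
  have hker : ∀ g, mk g = 1 ↔ g ∈ center G := fun g => QuotientGroup.eq_one_iff g
  have hnt2 : Nontrivial (G ⧸ center G) := by
    by_contra hs
    rw [not_nontrivial_iff_subsingleton] at hs
    apply hcon0
    intro a b
    have h1 : a ∈ center G := (hker a).1 (Subsingleton.elim _ _)
    exact (Subgroup.mem_center_iff.1 h1 b).symm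
  obtain ⟨M, hM, hM0, hMmin⟩ := Cfsg.Agent.H386.Factor.exists_min_normal (G := G ⧸ center G)
  set N : Subgroup G := M.comap mk with hN
  have hNn : N.Normal := hM.comap mk
  have hNM : N.map mk = M := Subgroup.map_comap_eq_self_of_surjective hsurj M
  have hMem : ∀ x, x ∈ N ↔ mk x ∈ M := fun x => Iff.rfl
  -- the centre of `N`
  have hZ : ∀ x ∈ N, (∀ y ∈ N, x * y = y * x) → x ∈ center G := by
    intro x hx hxy
    have hC : (N ⊓ Subgroup.centralizer (N : Set G)).Normal := by
      have : (Subgroup.centralizer (N : Set G)).Normal := Subgroup.normal_centralizer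
      infer_instance
    refine habN _ hC (fun a ha b hb => ?_) ⟨hx, ?_⟩
    · exact (Subgroup.mem_centralizer_iff.1 ha.2 b hb.1).symm
    · show x ∈ Subgroup.centralizer (N : Set G)
      rw [Subgroup.mem_centralizer_iff]
      intro y hy
      exact (hxy y hy).symm
  have hnaN : ∃ x ∈ N, ∃ y ∈ N, x * y ≠ y * x := by
    by_contra hcon
    push Not at hcon
    apply hM0
    rw [eq_bot_iff]
    intro y hy
    obtain ⟨x, rfl⟩ := hsurj y
    rw [Subgroup.mem_bot, hker]
    exact hZ x hy (fun z hz => hcon x hy z hz)
  by_cases hMab : ∀ x ∈ M, ∀ y ∈ M, Commute x y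
  · -- abelian case
    have hcomm : ∀ x ∈ N, ∀ y ∈ N, ⁅x, y⁆ ∈ center G := by
      intro x hx y hy
      rw [← hker, map_commutatorElement, commutatorElement_eq_one_iff_mul_comm]
      exact hMab _ hx _ hy
    -- the order of `M`
    have hcq := card_quot_le ρ hinj N hsc hcomm hZ
    have hcard : Nat.card (N ⧸ (center G).subgroupOf N) = Nat.card M := by
      let φ : N →* M := (mk.comp N.subtype).codRestrict M (fun b => b.2)
      have hφs : Function.Surjective φ := by
        rintro ⟨a, ha⟩
        obtain ⟨b, rfl⟩ := hsurj a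
        exact ⟨⟨b, ha⟩, rfl⟩
      have hφk : φ.ker = (center G).subgroupOf N := by
        ext b
        rw [MonoidHom.mem_ker, Subgroup.mem_subgroupOf, ← hker]
        constructor
        · intro h1; exact congrArg Subtype.val h1
        · intro h1; exact Subtype.ext h1
      rw [← hφk]
      exact Nat.card_congr (QuotientGroup.quotientKerEquivOfSurjective φ hφs).toEquiv
    have h16 : Nat.card M ≤ 16 := by
      rw [← hcard]
      exact hcq.trans (Nat.mul_le_mul hd hd)
    have hM1 : Nat.card M ≠ 1 := fun h1 => hM0 (Subgroup.card_eq_one.1 h1)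
    obtain ⟨p, hp, hpd⟩ := Nat.exists_prime_and_dvd hM1
    have hpf : Fact p.Prime := ⟨hp⟩
    -- exponent `p`
    have hexp : ∀ x ∈ M, x ^ p = 1 := by
      let E : Subgroup (G ⧸ center G) :=
        { carrier := {x | x ∈ M ∧ x ^ p = 1}
          one_mem' := ⟨one_mem _, one_pow _⟩
          mul_mem' := fun {a b} ha hb => ⟨mul_mem ha.1 hb.1, by
            rw [(hMab a ha.1 b hb.1).mul_pow, ha.2, hb.2, one_mul]⟩
          inv_mem' := fun {a} ha => ⟨inv_mem ha.1, by rw [inv_pow, ha.2, inv_one]⟩ }
      have hE : E.Normal := ⟨fun a ha g => ⟨hM.conj_mem a ha.1 g, by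
        rw [conj_pow, ha.2, mul_one, mul_inv_cancel]⟩⟩
      have hE0 : E ≠ ⊥ := by
        obtain ⟨x, hx⟩ := exists_prime_orderOf_dvd_card' p hpd
        intro h0
        have h1 : (x : G ⧸ center G) ∈ E := ⟨x.2, by
          have := pow_orderOf_eq_one x
          rw [hx] at this
          exact congrArg Subtype.val this⟩
        rw [h0, Subgroup.mem_bot] at h1
        have h2 : x = 1 := Subtype.ext h1
        rw [h2, orderOf_one] at hx
        exact hp.one_lt.ne hx
      rcases hMmin E hE (fun x hx => hx.1) with h | h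
      · exact absurd h hE0
      · intro x hx
        rw [← h] at hx
        exact hx.2
    have hMp : IsPGroup p M := fun x => ⟨1, Subtype.ext (by rw [pow_one]; exact hexp x x.2)⟩
    obtain ⟨a, ha⟩ := IsPGroup.iff_card.1 hMp
    -- the rank is at least two
    have ha2 : 2 ≤ a := by
      by_contra hlt
      have ha1 : a = 0 ∨ a = 1 := by omega
      rcases ha1 with rfl | rfl
      · rw [pow_zero] at ha
        exact hM1 ha
      · rw [pow_one, ← hNM] at ha
        obtain ⟨x, hx, y, hy, hxy⟩ := hnaN
        exact hxy (comm_of_card_prime ha x hx y hy)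
    have hp2 : p = 2 := by
      have h1 : p ^ 2 ≤ 16 := by
        calc p ^ 2 ≤ p ^ a := Nat.pow_le_pow_right hp.pos ha2
          _ = Nat.card M := ha.symm
          _ ≤ 16 := h16
      have h4 : p ≤ 4 := by
        by_contra hlt
        have : 5 ^ 2 ≤ p ^ 2 := Nat.pow_le_pow_left (by omega) 2
        omega
      have h2 := hp.two_le
      interval_cases p
      · rfl
      · exfalso
        apply h3
        refine hpd.trans ((Subgroup.card_subgroup_dvd_card M).trans ?_)
        exact Subgroup.card_quotient_dvd_card _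
      · exact absurd hp (by decide)
    subst hp2
    have htwo : ∀ x ∈ N, x * x ∈ center G := by
      intro x hx
      rw [← hker, map_mul, ← pow_two]
      exact hexp _ hx
    obtain ⟨ε, hε⟩ := exists_cl ρ hinj N hsc hcomm htwo hZ hnaN
    have ha4 : a ≤ 4 := by
      by_contra hlt
      have : 2 ^ 5 ≤ 2 ^ a := Nat.pow_le_pow_right (by norm_num) (by omega)
      omega
    have hcd : Nat.card M = 4 ∨ Nat.card M = 16 := by
      interval_cases a
      · left; rw [ha]; norm_num
      · exact absurd (by rw [hcard, ha]; norm_num) hε.card_ne_eight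
      · right; rw [ha]; norm_num
    exact ⟨M, hM, hM0, hMmin, fun x hx => by rw [← pow_two]; exact hexp x hx, ⟨ε, hε⟩, hcomm, hcd⟩
  · -- nonabelian case
    exfalso
    obtain ⟨T, hT⟩ := Cfsg.Agent.H386.Factor.exists_factor M hMmin hMab
    have hTs : IsSimpleGroup T := by
      have : Nontrivial T := (Subgroup.nontrivial_iff_ne_bot T).2 hT.ne_bot
      refine ⟨fun K hK => ?_⟩
      have hle : K.map T.subtype ≤ T := Subgroup.map_subtype_le K
      rcases hT.simple (K.map T.subtype) hle (by
        rintro s hs _ ⟨x, hx, rfl⟩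
        exact ⟨_, hK.conj_mem x hx ⟨s, hs⟩, rfl⟩) with h | h
      · left
        exact (Subgroup.map_eq_bot_iff_of_injective K T.subtype_injective).1 h
      · right
        rw [eq_top_iff]
        intro x _
        have h1 : (x : G ⧸ center G) ∈ K.map T.subtype := by rw [h]; exact x.2
        obtain ⟨y, hy, hyx⟩ := h1
        rwa [← Subtype.ext hyx]
    have hTna : ∃ a b : T, a * b ≠ b * a := by
      by_contra hcon
      push Not at hcon
      apply hT.ne_bot
      rw [eq_bot_iff]
      intro x hx
      rw [Subgroup.mem_bot]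
      refine hT.centerless x hx fun y hy => ?_
      exact congrArg Subtype.val (hcon ⟨x, hx⟩ ⟨y, hy⟩)
    have hT3 : ¬ 3 ∣ Nat.card T := fun h =>
      h3 (h.trans ((Subgroup.card_subgroup_dvd_card T).trans (Subgroup.card_quotient_dvd_card _)))
    obtain ⟨A, c, hAc⟩ := exists_frob hTna hT3
    exact no_frob ρ hinj hd hk hsc _ _ (hAc.map T.subtype T.subtype_injective)

end Cfsg.Agent.H558.RV
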