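import Cfsg.Agent.H558.Deg4Data.QuotQ
import Cfsg.Agent.H558.Deg4Data.Bar

/-!
# Swapping two-dimensional blocks in `SL_n(q)`, `SU_n(q)`, `Sp_2m(q)`, `q` odd (helper558)
-/

set_option autoImplicit false

namespace Cfsg.Agent.H558.RV

open Matrix Cfsg.Agent.H558.Deg4Data

section Pm

variable {F K : Type*} [Field F] [Field K] {ι : Type*} [Fintype ι] [DecidableEq ι] {m : ℕ}
  {e : Fin m → Fin 2 → ι} {e1 e2 e3 : Fin 2 → ι}

/-- The difference of two coordinate embeddings. -/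
def dU (e1 e2 : Fin 2 → ι) : Matrix ι (Fin 2) F := colU (K := F) e1 - colU (K := F) e2

/-- The permutation matrix swapping two blocks. -/
def pm (e1 e2 : Fin 2 → ι) : Matrix ι ι F := 1 - dU (F := F) e1 e2 * (dU (F := F) e1 e2)ᵀ

theorem dU_mul (h1 : Function.Injective e1) (h2 : Function.Injective e2) (h : ∀ k l, e1 k ≠ e2 l) :
    (dU (F := F) e1 e2)ᵀ * colU (K := F) e1 = 1 ∧ (dU (F := F) e1 e2)ᵀ * colU (K := F) e2 = -1 := by
  have a1 := colU_transpose_mul (K := F) e1 h1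
  have a2 := colU_transpose_mul (K := F) e2 h2
  have b1 := colU_transpose_mul_of_ne (F := F) h
  have b2 := colU_transpose_mul_of_ne (F := F) (e1 := e2) (e2 := e1) (fun k l => (h l k).symm)
  unfold dU
  rw [Matrix.transpose_sub, Matrix.sub_mul, Matrix.sub_mul, a1, a2, b1, b2, sub_zero, zero_sub]
  exact ⟨rfl, rfl⟩

theorem dU_mul_other (h1 : ∀ k l, e1 k ≠ e3 l) (h2 : ∀ k l, e2 k ≠ e3 l) :
    (dU (F := F) e1 e2)ᵀ * colU (K := F) e3 = 0 := by
  unfold dU
  rw [Matrix.transpose_sub, Matrix.sub_mul, colU_transpose_mul_of_ne h1, colU_transpose_mul_of_ne h2, sub_zero]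

theorem dU_mul_self (h1 : Function.Injective e1) (h2 : Function.Injective e2) (h : ∀ k l, e1 k ≠ e2 l) :
    (dU (F := F) e1 e2)ᵀ * dU (F := F) e1 e2 = 2 := by
  obtain ⟨a, b⟩ := dU_mul (F := F) h1 h2 h
  nth_rewrite 2 [dU]
  rw [Matrix.mul_sub, a, b, sub_neg_eq_add, one_add_one_eq_two]

theorem pm_mul_left (h1 : Function.Injective e1) (h2 : Function.Injective e2) (h : ∀ k l, e1 k ≠ e2 l) :
    pm (F := F) e1 e2 * colU (K := F) e1 = colU (K := F) e2 := by
  obtain ⟨a, -⟩ := dU_mul (F := F) h1 h2 h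
  unfold pm
  rw [Matrix.sub_mul, Matrix.one_mul, Matrix.mul_assoc, a, Matrix.mul_one, dU]
  abel

theorem pm_mul_right (h1 : Function.Injective e1) (h2 : Function.Injective e2) (h : ∀ k l, e1 k ≠ e2 l) :
    pm (F := F) e1 e2 * colU (K := F) e2 = colU (K := F) e1 := by
  obtain ⟨-, b⟩ := dU_mul (F := F) h1 h2 h
  unfold pm
  rw [Matrix.sub_mul, Matrix.one_mul, Matrix.mul_assoc, b, Matrix.mul_neg, Matrix.mul_one, dU]
  abel

theorem pm_mul_other (h1 : ∀ k l, e1 k ≠ e3 l) (h2 : ∀ k l, e2 k ≠ e3 l) :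
    pm (F := F) e1 e2 * colU (K := F) e3 = colU (K := F) e3 := by
  unfold pm
  rw [Matrix.sub_mul, Matrix.one_mul, Matrix.mul_assoc, dU_mul_other h1 h2, Matrix.mul_zero, sub_zero]

theorem pm_mul_self (h1 : Function.Injective e1) (h2 : Function.Injective e2) (h : ∀ k l, e1 k ≠ e2 l) :
    pm (F := F) e1 e2 * pm (F := F) e1 e2 = 1 := by
  have a := dU_mul_self (F := F) h1 h2 h
  have b : dU (F := F) e1 e2 * (dU (F := F) e1 e2)ᵀ * (dU (F := F) e1 e2 * (dU (F := F) e1 e2)ᵀ)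
      = dU (F := F) e1 e2 * (dU (F := F) e1 e2)ᵀ + dU (F := F) e1 e2 * (dU (F := F) e1 e2)ᵀ := by
    calc dU (F := F) e1 e2 * (dU (F := F) e1 e2)ᵀ * (dU (F := F) e1 e2 * (dU (F := F) e1 e2)ᵀ)
        = dU (F := F) e1 e2 * ((dU (F := F) e1 e2)ᵀ * dU (F := F) e1 e2) * (dU (F := F) e1 e2)ᵀ := by
          simp only [Matrix.mul_assoc]
      _ = _ := by
          have c : (2 : Matrix (Fin 2) (Fin 2) F) = 1 + 1 := one_add_one_eq_two.symm
          rw [a, c, Matrix.mul_add, Matrix.mul_one, Matrix.add_mul]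
  unfold pm
  rw [Matrix.sub_mul, Matrix.mul_sub, Matrix.mul_one, Matrix.one_mul, Matrix.mul_sub, b, Matrix.mul_one]
  abel

omit [Fintype ι] in
theorem pm_transpose (e1 e2 : Fin 2 → ι) : (pm (F := F) e1 e2)ᵀ = pm (F := F) e1 e2 := by
  unfold pm
  rw [Matrix.transpose_sub, Matrix.transpose_mul, Matrix.transpose_transpose, Matrix.transpose_one]

/-- conjugating a block matrix -/
theorem pm_conj {P : Matrix ι ι F} (hP : P * P = 1) (hPt : Pᵀ = P) {e1 e2 : Fin 2 → ι}
    (h : P * colU (K := F) e1 = colU (K := F) e2) (B : Matrix (Fin 2) (Fin 2) F) : P * bm e1 B * P = bm e2 B := by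
  have h' : (colU (K := F) e1)ᵀ * P = (colU (K := F) e2)ᵀ := by
    rw [← h, Matrix.transpose_mul, hPt]
  unfold bm blk
  rw [Matrix.mul_add, Matrix.mul_one, Matrix.add_mul, hP]
  congr 1
  calc P * (colU (K := F) e1 * (B - 1) * (colU (K := F) e1)ᵀ) * P
      = (P * colU (K := F) e1) * (B - 1) * ((colU (K := F) e1)ᵀ * P) := by simp only [Matrix.mul_assoc]
    _ = _ := by rw [h, h']

theorem det_pm (h2F : (2 : F) ≠ 0) (h1 : Function.Injective e1) (h2 : Function.Injective e2) (h : ∀ k l, e1 k ≠ e2 l) :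
    (pm (F := F) e1 e2).det = 1 := by
  have a : ((2 : F)⁻¹ • (dU (F := F) e1 e2)ᵀ) * dU (F := F) e1 e2 = 1 := by
    rw [Matrix.smul_mul, dU_mul_self h1 h2 h]
    ext i j
    fin_cases i <;> fin_cases j <;> simp [h2F, Matrix.ofNat_apply]
  have b : pm (F := F) e1 e2 = blk (dU (F := F) e1 e2) ((2 : F)⁻¹ • (dU (F := F) e1 e2)ᵀ) (-1) := by
    have c : (-1 - 1 : Matrix (Fin 2) (Fin 2) F) = (-2 : F) • 1 := by
      ext i j; fin_cases i <;> fin_cases j <;> simp <;> norm_num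
    unfold pm blk
    have d : (2 : F)⁻¹ * -2 = -1 := by rw [mul_neg, inv_mul_cancel₀ h2F]
    rw [c, Matrix.mul_smul, Matrix.mul_smul, Matrix.mul_one, Matrix.smul_mul, smul_smul, d,
      neg_smul, one_smul, sub_eq_add_neg]
  rw [b, det_blk a]
  simp [Matrix.det_fin_two]

theorem map_pm (f : F →+* K) (e1 e2 : Fin 2 → ι) : (pm (F := F) e1 e2).map f = pm (F := K) e1 e2 := by
  have a : (dU (F := F) e1 e2).map f = dU (F := K) e1 e2 := by
    unfold dU
    rw [Matrix.map_sub _ (map_sub f), map_colU, map_colU]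
  unfold pm
  rw [Matrix.map_sub _ (map_sub f), Matrix.map_one _ (map_zero f) (map_one f), Matrix.map_mul, Matrix.transpose_map, a]

end Pm

/-- The frame data, for matrices. -/
def FrmM {K ι G : Type*} [Field K] [Fintype ι] [DecidableEq ι] [Group G] (ρ : G →* Matrix ι ι K) : Prop :=
  ∃ (m : ℕ) (x y : Fin m → G) (b : Module.Basis ι K (ι → K)) (ev : Fin m → ι → K),
    (∀ i, QP ρ (x i) (y i)) ∧ (∀ i, x i ≠ 1) ∧
    (∀ i j, i ≠ j → Commute (x i) (x j) ∧ Commute (x i) (y j) ∧ Commute (y i) (y j)) ∧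
    (∀ i j, ρ (x i) *ᵥ b j = ev i j • b j) ∧ (∀ j j', j ≠ j' → ∃ i, ev i j ≠ ev i j') ∧
    ∀ i j, i ≠ j → ∃ w : G, ∀ k, w * (x k * x k) * w⁻¹ = x (Equiv.swap i j k) * x (Equiv.swap i j k)

section

variable {F K : Type*} [Field F] [Field K] {ι : Type*} [Fintype ι] [DecidableEq ι] {m : ℕ}
  {e : Fin m → Fin 2 → ι}

theorem wq_ne_one : wq F ≠ 1 := by
  intro h
  have := congrFun (congrFun h 0) 1
  simp [wq] at this

/-- The frame from the blocks. -/
theorem frmM_of {G : Type*} [Group G] (ρ : G →* Matrix ι ι K) (hρ : Function.Injective ρ) (he : Pairs e)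
    (hI : ∃ I : K, I * I = -1) (h2 : (2 : K) ≠ 0) {s t : K} (hst : s * s + t * t = -1)
    (hx : ∀ i, ∃ x : G, ρ x = bm (e i) (wq K)) (hy : ∀ i, ∃ y : G, ρ y = bm (e i) (yq s t))
    (hw : ∀ i j, i ≠ j → ∃ w : G, ρ w = pm (e i) (e j)) : FrmM ρ := by
  obtain ⟨I, hI⟩ := hI
  choose x hx using hx
  choose y hy using hy
  obtain ⟨b, hb⟩ := exists_basis he hI h2
  have hne : ∀ i j, i ≠ j → ∀ k l, e i k ≠ e j l := fun i j hij k l h => hij (he.inj _ _ _ _ h).1
  refine ⟨m, x, y, b, evl e I, fun i => ⟨?_, ?_, ?_, ?_, ?_, ?_⟩, fun i hi => ?_, fun i j hij => ⟨?_, ?_, ?_⟩, fun i j => ?_,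
    fun j j' hj => evl_sep he hI h2 hj, fun i j hij => ?_⟩
  · apply hρ
    rw [map_pow, hx, ← bm_pow (he.injective i), wq_pow_four, bm_one, map_one]
  · apply hρ
    rw [map_mul, map_mul, hx, hy, ← bm_mul (he.injective i), ← bm_mul (he.injective i), wq_mul_self, yq_mul_self hst]
  · have h1 : y i * x i = (x i)⁻¹ * y i := by
      rw [eq_inv_mul_iff_mul_eq]
      apply hρ
      rw [map_mul, map_mul, hx, hy, ← bm_mul (he.injective i), ← bm_mul (he.injective i), yq_mul_wq, Matrix.mul_neg,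
        ← Matrix.mul_assoc, wq_mul_self, Matrix.neg_mul, Matrix.one_mul, neg_neg]
    rw [h1, mul_inv_cancel_right]
  · rw [map_mul, hx, ← bm_mul (he.injective i)]
    exact rank_bm_sub_one _ _
  · intro v hv
    rw [hx] at hv
    exact bm_no_neg (he.injective i) h2 wq_mul_self v hv
  · intro v hv
    rw [hy] at hv
    exact bm_no_neg (he.injective i) h2 (yq_mul_self hst) v hv
  · have h3 := hx i
    rw [hi, map_one, ← bm_one (F := K) (e i)] at h3
    exact wq_ne_one (bm_inj (he.injective i) h3).symm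
  · apply hρ
    rw [map_mul, map_mul, hx, hx]
    exact bm_commute (hne i j hij) _ _
  · apply hρ
    rw [map_mul, map_mul, hx, hy]
    exact bm_commute (hne i j hij) _ _
  · apply hρ
    rw [map_mul, map_mul, hy, hy]
    exact bm_commute (hne i j hij) _ _
  · rw [hx]; exact hb i j
  · obtain ⟨w, hw⟩ := hw i j hij
    have hi := he.injective i
    have hj := he.injective j
    have hww : w * w = 1 := by
      apply hρ
      rw [map_mul, hw, pm_mul_self hi hj (hne i j hij), map_one]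
    have hwi : w⁻¹ = w := inv_eq_of_mul_eq_one_left hww
    refine ⟨w, fun k => ?_⟩
    rw [hwi]
    apply hρ
    rw [map_mul, map_mul, map_mul, map_mul, hw, hx, hx, ← bm_mul (he.injective k), ← bm_mul (he.injective _)]
    have hP := pm_mul_self (F := K) hi hj (hne i j hij)
    refine pm_conj hP (pm_transpose _ _) ?_ _
    by_cases hki : k = i
    · subst hki
      rw [Equiv.swap_apply_left]
      exact pm_mul_left hi hj (hne _ _ hij)
    · by_cases hkj : k = j
      · subst hkj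
        rw [Equiv.swap_apply_right]
        exact pm_mul_right hi hj (hne _ _ hij)
      · rw [Equiv.swap_apply_of_ne_of_ne hki hkj]
        exact pm_mul_other (hne _ _ (Ne.symm hki)) (hne _ _ (Ne.symm hkj))

end

section Groups

variable {F K : Type*} [Field F] [Field K] (f : F →+* K)

theorem frmM_SL [Fintype F] (h2 : (2 : F) ≠ 0) (hI : ∃ I : K, I * I = -1) (n : ℕ) : FrmM (rhoSL f n) := by
  obtain ⟨s, t, hst⟩ := exists_two_sq (F := F)
  refine frmM_of (rhoSL f n) (rhoSL_injective f n) (pairs_fin n) hI (two_ne_map f h2) (map_two_sq f hst)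
    (fun i => ?_) (fun i => ?_) fun i j hij => ?_
  · refine ⟨(⟨bm _ (wq F), (det_bm ((pairs_fin n).injective i) _).trans det_wq⟩ :
      Matrix.SpecialLinearGroup (Fin n) F), ?_⟩
    show (bm _ (wq F)).map f = _
    rw [map_bm, map_wq]
  · refine ⟨(⟨bm _ (yq s t), (det_bm ((pairs_fin n).injective i) _).trans (det_yq hst)⟩ :
      Matrix.SpecialLinearGroup (Fin n) F), ?_⟩
    show (bm _ (yq s t)).map f = _
    rw [map_bm, map_yq]
  · refine ⟨(⟨pm _ _, det_pm h2 ((pairs_fin n).injective i) ((pairs_fin n).injective j)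
      fun k l h => hij ((pairs_fin n).inj _ _ _ _ h).1⟩ : Matrix.SpecialLinearGroup (Fin n) F), ?_⟩
    show (pm _ _).map f = _
    rw [map_pm]

theorem frmM_SU [Fintype F] {q n : ℕ} (hF : Fintype.card F = q ^ 2) (h2 : (2 : F) ≠ 0) (hIF : ∃ I : F, I * I = -1) :
    FrmM (rhoSU f n q) := by
  have hI : ∃ I : K, I * I = -1 := by
    obtain ⟨I, hI⟩ := hIF
    exact ⟨f I, by rw [← map_mul, hI, map_neg, map_one]⟩
  obtain ⟨s, t, hst, hs, ht⟩ := exists_two_sq_anti hF h2 hIF
  obtain ⟨σ, hσ⟩ := ClassicalGeometry.GUBasic.exists_powHom hF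
  have hσ' : (fun x : F => x ^ q) = σ := by ext x; rw [hσ]
  refine frmM_of (rhoSU f n q) (rhoSU_injective f n q) (pairs_fin n) hI (two_ne_map f h2) (map_two_sq f hst)
    (fun i => ?_) (fun i => ?_) fun i j hij => ?_
  · have he := (pairs_fin n).injective i
    refine ⟨⟨⟨bm _ (wq F), (det_bm he _).trans det_wq⟩, mem_SU_of hF _ ?_⟩, ?_⟩
    · show (bm _ (wq F))ᵀ * (bm _ (wq F)).map (fun x => x ^ q) = 1
      rw [hσ', map_bm, map_wq, bm_transpose, ← bm_mul he]
      have : (wq F)ᵀ * wq F = 1 := by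
        ext i j; fin_cases i <;> fin_cases j <;> simp [wq, Matrix.mul_apply, Fin.sum_univ_two]
      rw [this, bm_one]
    · rw [rhoSU_apply]
      show (bm _ (wq F)).map f = _
      rw [map_bm, map_wq]
  · have he := (pairs_fin n).injective i
    refine ⟨⟨⟨bm _ (yq s t), (det_bm he _).trans (det_yq hst)⟩, mem_SU_of hF _ ?_⟩, ?_⟩
    · show (bm _ (yq s t))ᵀ * (bm _ (yq s t)).map (fun x => x ^ q) = 1
      rw [hσ', map_bm, map_yq, bm_transpose, ← bm_mul he]
      have h3 : σ s = -s := by rw [hσ, hs]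
      have h4 : σ t = -t := by rw [hσ, ht]
      have : (yq s t)ᵀ * yq (σ s) (σ t) = 1 := by
        rw [h3, h4]
        ext i j
        fin_cases i <;> fin_cases j <;> simp [yq, Matrix.mul_apply, Fin.sum_univ_two] <;>
          first | linear_combination -hst | ring
      rw [this, bm_one]
    · rw [rhoSU_apply]
      show (bm _ (yq s t)).map f = _
      rw [map_bm, map_yq]
  · have hi := (pairs_fin n).injective i
    have hj := (pairs_fin n).injective j
    have hne := fun k l h => hij ((pairs_fin n).inj i k j l h).1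
    refine ⟨⟨⟨pm _ _, det_pm h2 hi hj hne⟩, mem_SU_of hF _ ?_⟩, ?_⟩
    · show (pm _ _)ᵀ * (pm _ _).map (fun x => x ^ q) = 1
      rw [hσ', map_pm, pm_transpose, pm_mul_self hi hj hne]
    · rw [rhoSU_apply]
      show (pm _ _).map f = _
      rw [map_pm]

theorem pm_mem_sp {m : ℕ} {i j : Fin m} (hij : i ≠ j) :
    pm (spIdx i) (spIdx j) ∈ Matrix.symplecticGroup (Fin m) F := by
  have hi := (pairs_spIdx m).injective i
  have hj := (pairs_spIdx m).injective j
  have hne := fun k l h => hij ((pairs_spIdx m).inj i k j l h).1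
  rw [SymplecticGroup.mem_iff, pm_transpose]
  have h1 : Matrix.J (Fin m) F * dU (F := F) (spIdx i) (spIdx j) = dU (F := F) (spIdx i) (spIdx j) * (-wq F) := by
    unfold dU
    rw [Matrix.mul_sub, J_mul_colU, J_mul_colU, Matrix.sub_mul]
  have h2 : (dU (F := F) (spIdx i) (spIdx j))ᵀ * Matrix.J (Fin m) F = (-wq F) * (dU (F := F) (spIdx i) (spIdx j))ᵀ := by
    unfold dU
    rw [Matrix.transpose_sub, Matrix.sub_mul, transpose_mul_J, transpose_mul_J, Matrix.mul_sub]
  have h3 : pm (spIdx i) (spIdx j) * Matrix.J (Fin m) F = Matrix.J (Fin m) F * pm (spIdx i) (spIdx j) := by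
    unfold pm
    rw [Matrix.sub_mul, Matrix.mul_sub, Matrix.one_mul, Matrix.mul_one, Matrix.mul_assoc, h2, ← Matrix.mul_assoc _ _ (_)ᵀ,
      ← Matrix.mul_assoc _ _ (_)ᵀ, h1]
  rw [h3, Matrix.mul_assoc, pm_mul_self hi hj hne, Matrix.mul_one]

theorem frmM_Sp [Fintype F] (h2 : (2 : F) ≠ 0) (hI : ∃ I : K, I * I = -1) (m : ℕ) : FrmM (rhoSp f m) := by
  obtain ⟨s, t, hst⟩ := exists_two_sq (F := F)
  refine frmM_of (rhoSp f m) (rhoSp_injective f m) (pairs_spIdx m) hI (two_ne_map f h2) (map_two_sq f hst)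
    (fun i => ?_) (fun i => ?_) fun i j hij => ?_
  · refine ⟨⟨bm _ (wq F), bm_mem_sp i _ det_wq⟩, ?_⟩
    rw [rhoSp_apply]
    show (bm _ (wq F)).map f = _
    rw [map_bm, map_wq]
  · refine ⟨⟨bm _ (yq s t), bm_mem_sp i _ (det_yq hst)⟩, ?_⟩
    rw [rhoSp_apply]
    show (bm _ (yq s t)).map f = _
    rw [map_bm, map_yq]
  · refine ⟨⟨pm _ _, pm_mem_sp hij⟩, ?_⟩
    rw [rhoSp_apply]
    show (pm _ _).map f = _
    rw [map_pm]

end Groups

end Cfsg.Agent.H558.RV
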