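import Cfsg.Agent.H558.RV.Frame

/-!
# `r`-elements acting on 2-groups in dimension two (helper558)

`partA2` : `σ` a representation of dimension at most two, `y` an `r`-element, `r ≥ 5`, normalising a 2-group `D`: the
commutators `[y, d]` act trivially.  (helper556's `partA` on the space of endomorphisms.)
-/

set_option autoImplicit false
set_option linter.unusedSectionVars false

namespace Cfsg.Agent.H558.RV

open Module Cfsg.Agent.H167.OP

variable {F : Type*} [Field F] {M : Type*} [AddCommGroup M] [Module F M] [FiniteDimensional F M]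
  {G : Type*} [Group G]

/-- the conjugation action on the endomorphisms -/
def cj (σ : Representation F G M) : Representation F G (End F M) where
  toFun g := LinearMap.mulLeft F (σ g) * LinearMap.mulRight F (σ g⁻¹)
  map_one' := by
    ext A v
    show (σ 1 * (A * σ 1⁻¹)) v = A v
    rw [inv_one, map_one, mul_one, one_mul]
  map_mul' g h := by
    ext A v
    show (σ (g * h) * (A * σ (g * h)⁻¹)) v = (σ g * ((σ h * (A * σ h⁻¹)) * σ g⁻¹)) v
    rw [mul_inv_rev, map_mul, map_mul]
    simp only [mul_assoc]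

theorem cj_apply (σ : Representation F G M) (g : G) (A : End F M) : cj σ g A = σ g * (A * σ g⁻¹) := rfl

/-- the trace form -/
noncomputable def tf : End F M →ₗ[F] End F M →ₗ[F] F :=
  LinearMap.mk₂ F (fun A B => LinearMap.trace F M (A * B)) (fun A B C => by rw [add_mul, map_add])
    (fun c A B => by rw [smul_mul_assoc, map_smul]) (fun A B C => by rw [mul_add, map_add])
    (fun c A B => by rw [mul_smul_comm, map_smul])

theorem tf_apply (A B : End F M) : tf A B = LinearMap.trace F M (A * B) := rfl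

theorem tf_nd (A : End F M) (h : ∀ B, tf A B = 0) : A = 0 := by
  ext v
  rw [LinearMap.zero_apply]
  by_contra hne
  obtain ⟨φ, hφ⟩ : ∃ φ : Dual F M, φ (A v) ≠ 0 := by
    by_contra hcon
    push Not at hcon
    exact hne ((Module.forall_dual_apply_eq_zero_iff F _).1 hcon)
  have h1 := h (φ.smulRight v)
  rw [tf_apply] at h1
  apply hφ
  have h2 : A * φ.smulRight v = φ.smulRight (A v) := by
    ext w
    show A (φ w • v) = φ w • A v
    rw [map_smul]
  rw [h2, LinearMap.trace_smulRight] at h1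
  exact h1

/-- **dimension two** -/
theorem partA2 [Finite G] (σ : Representation F G M) (h2 : (2 : F) ≠ 0) (hdim : finrank F M ≤ 2) {r : ℕ} (hr : r.Prime)
    (h5 : 5 ≤ r) {y : G} {n : ℕ} (hy : y ^ r ^ n = 1) {D : Subgroup G} (hD : IsPGroup 2 D) (hn : Nrm y D) :
    ∀ d ∈ D, σ (y * d * y⁻¹ * d⁻¹) = 1 := by
  intro d hd
  have hinv : ∀ g : G, σ g⁻¹ * σ g = 1 := fun g => by rw [← map_mul, inv_mul_cancel, map_one]
  have hinv' : ∀ g : G, σ g * σ g⁻¹ = 1 := fun g => by rw [← map_mul, mul_inv_cancel, map_one]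
  have h1 := Cfsg.Agent.H556.OmSmall.partA (cj σ) h2 tf (fun A B => by rw [tf_apply, tf_apply, LinearMap.trace_mul_comm])
    tf_nd (fun g A B => by
      rw [tf_apply, tf_apply, cj_apply, cj_apply]
      have h3 : σ g * (A * σ g⁻¹) * (σ g * (B * σ g⁻¹)) = σ g * (A * B * σ g⁻¹) := by
        calc σ g * (A * σ g⁻¹) * (σ g * (B * σ g⁻¹)) = σ g * (A * (σ g⁻¹ * σ g) * (B * σ g⁻¹)) := by
              simp only [mul_assoc]
          _ = _ := by rw [hinv, mul_one]; simp only [mul_assoc]
      rw [h3, LinearMap.trace_mul_comm, mul_assoc, hinv, mul_one]) (by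
      rw [Module.finrank_linearMap]
      calc finrank F M * finrank F M ≤ 2 * 2 := Nat.mul_le_mul hdim hdim
        _ = 4 := by norm_num) hr h5 hy hD hn d hd
  set c := y * d * y⁻¹ * d⁻¹ with hc
  have hcomm : ∀ A : End F M, σ c * A = A * σ c := by
    intro A
    have h3 : cj σ c A = A := by rw [h1]; rfl
    rw [cj_apply] at h3
    calc σ c * A = σ c * (A * (σ c⁻¹ * σ c)) := by rw [hinv, mul_one]
      _ = σ c * (A * σ c⁻¹) * σ c := by simp only [mul_assoc]
      _ = A * σ c := by rw [h3]
  -- scalars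
  by_cases hM : Subsingleton M
  · exact Subsingleton.elim _ _
  rw [not_subsingleton_iff_nontrivial] at hM
  obtain ⟨l, hl⟩ : ∃ l : F, σ c = l • (1 : End F M) := by
    have h3 : σ c ∈ Subalgebra.center F (End F M) := by
      rw [Subalgebra.mem_center_iff]
      intro A
      exact (hcomm A).symm
    rw [Algebra.IsCentral.center_eq_bot, Algebra.mem_bot] at h3
    obtain ⟨l, hl⟩ := h3
    exact ⟨l, by rw [← hl]; exact Algebra.algebraMap_eq_smul_one l⟩
  have hyd : σ (y * d * y⁻¹) = l • σ d := by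
    have h3 : y * d * y⁻¹ = c * d := by rw [hc]; group
    rw [h3, map_mul, hl, smul_mul_assoc, one_mul]
  have hcn : ∀ k : ℕ, σ (y ^ k * d * (y ^ k)⁻¹) = l ^ k • σ d := by
    intro k
    induction k with
    | zero => rw [pow_zero, pow_zero, one_mul, inv_one, mul_one, one_smul]
    | succ k ih =>
      have h3 : y ^ (k + 1) * d * (y ^ (k + 1))⁻¹ = y * (y ^ k * d * (y ^ k)⁻¹) * y⁻¹ := by
        rw [pow_succ']; group
      rw [h3, map_mul, map_mul, ih, mul_smul_comm, smul_mul_assoc, ← map_mul, ← map_mul, hyd, smul_smul, pow_succ]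
  have hd0 : σ d ≠ 0 := by
    intro h0
    have h3 := hinv' d
    rw [h0, zero_mul] at h3
    exact zero_ne_one h3
  have e1 : l ^ r ^ n = 1 := by
    have h3 := hcn (r ^ n)
    rw [hy, one_mul, inv_one, mul_one] at h3
    have h4 : (l ^ r ^ n - 1) • σ d = 0 := by rw [sub_smul, ← h3, one_smul, sub_self]
    exact sub_eq_zero.1 ((smul_eq_zero.1 h4).resolve_right hd0)
  obtain ⟨k, hk⟩ := hD ⟨d, hd⟩
  have hk' : d ^ 2 ^ k = 1 := congrArg Subtype.val hk
  have e2 : l ^ 2 ^ k = 1 := by
    have h3 : σ ((y * d * y⁻¹) ^ 2 ^ k) = l ^ 2 ^ k • σ (d ^ 2 ^ k) := by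
      rw [map_pow, hyd, smul_pow, map_pow]
    rw [conj_pow, hk', mul_one, mul_inv_cancel, map_one] at h3
    have h4 : (l ^ 2 ^ k - 1) • (1 : End F M) = 0 := by rw [sub_smul, ← h3, one_smul, sub_self]
    exact sub_eq_zero.1 ((smul_eq_zero.1 h4).resolve_right one_ne_zero)
  have e3 : l = 1 := by
    rw [← orderOf_eq_one_iff]
    refine Nat.eq_one_of_dvd_coprimes ?_ (orderOf_dvd_of_pow_eq_one e2) (orderOf_dvd_of_pow_eq_one e1)
    exact Nat.Coprime.pow _ _ ((Nat.coprime_primes Nat.prime_two hr).mpr (by omega))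
  rw [hl, e3, one_smul]

end Cfsg.Agent.H558.RV
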